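import Mathlib.Tactic

/-!
Numerical inequalities for the regular-vector count in odd extraspecial-type groups.
-/

set_option autoImplicit false

namespace CfsgLib.OddRegular

theorem sixth_le (n : ℕ) (hn : 4 ≤ n) : 27 * n ^ 6 < 8 * 16 ^ n := by
  induction n, hn using Nat.le_induction with
  | base => norm_num
  | succ k hk ih =>
    have h1 : 4 * (k + 1) ≤ 5 * k := by omega
    have h2 := Nat.pow_le_pow_left h1 6
    rw [mul_pow, mul_pow] at h2
    norm_num at h2
    rw [pow_succ 16]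
    have h3 : 0 < 16 ^ k := by positivity
    nlinarith

theorem sixth_le' (n : ℕ) (hn : 2 ≤ n) : 27 * n ^ 6 < 8 * 3 ^ (4 * n - 3) := by
  induction n, hn using Nat.le_induction with
  | base => norm_num
  | succ k hk ih =>
    have h1 : 2 * (k + 1) ≤ 3 * k := by omega
    have h2 := Nat.pow_le_pow_left h1 6
    rw [mul_pow, mul_pow] at h2
    norm_num at h2
    rw [show 4 * (k + 1) - 3 = 4 * k - 3 + 4 by omega, pow_add]
    norm_num
    have h3 : 0 < 3 ^ (4 * k - 3) := by positivity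
    nlinarith

/-- The inequality needed for the count. -/
theorem count_lt {p L d n : ℕ} (hp : 3 ≤ p) (hd : p + 1 ≤ d)
    (hL : L ≤ n * n ∨ (L ≤ p * (n * n) ∧ p ^ 2 + 1 ≤ d)) :
    (3 * (L - 1)) ^ 3 < 8 * d ^ (2 * n) := by
  rcases Nat.eq_zero_or_pos n with rfl | hn
  · have : L = 0 := by rcases hL with h | ⟨h, -⟩ <;> simpa using h
    subst this; simp
  rcases hL with h | ⟨h, hd2⟩
  · have h4 : 4 ^ (2 * n) ≤ d ^ (2 * n) := Nat.pow_le_pow_left (by omega) _
    rcases le_or_gt 4 n with hn4 | hn4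
    · calc (3 * (L - 1)) ^ 3 ≤ (3 * (n * n)) ^ 3 := Nat.pow_le_pow_left (by omega) _
        _ = 27 * n ^ 6 := by ring
        _ < 8 * 16 ^ n := sixth_le n hn4
        _ = 8 * 4 ^ (2 * n) := by rw [pow_mul]; norm_num
        _ ≤ _ := by omega
    · refine lt_of_le_of_lt (Nat.pow_le_pow_left (Nat.mul_le_mul_left 3 (Nat.sub_le_sub_right h 1)) 3) ?_
      refine lt_of_lt_of_le ?_ (Nat.mul_le_mul_left 8 h4)
      interval_cases n <;> norm_num
  · rcases Nat.lt_or_ge n 2 with hn2 | hn2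
    · obtain rfl : n = 1 := by omega
      have h2 : (p ^ 2 + 1) ^ 2 ≤ d ^ (2 * 1) := by rw [mul_one]; exact Nat.pow_le_pow_left hd2 2
      have h3 : (3 * (L - 1)) ^ 3 ≤ (3 * (p - 1)) ^ 3 := Nat.pow_le_pow_left (by omega) _
      refine lt_of_le_of_lt h3 (lt_of_lt_of_le ?_ (Nat.mul_le_mul_left 8 h2))
      rcases Nat.lt_or_ge p 4 with h5 | h5
      · obtain rfl : p = 3 := by omega
        norm_num
      · calc (3 * (p - 1)) ^ 3 ≤ (3 * p) ^ 3 := Nat.pow_le_pow_left (by omega) _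
          _ < 8 * (p ^ 2 + 1) ^ 2 := by nlinarith [Nat.mul_le_mul_left (p ^ 3) h5, pow_pos (show 0 < p by omega) 3]
    · have h4 : p ^ (4 * n) ≤ d ^ (2 * n) := by
        rw [show 4 * n = 2 * (2 * n) by ring, pow_mul]
        exact Nat.pow_le_pow_left (by omega) _
      calc (3 * (L - 1)) ^ 3 ≤ (3 * (p * (n * n))) ^ 3 := Nat.pow_le_pow_left (by omega) _
        _ = p ^ 3 * (27 * n ^ 6) := by ring
        _ < p ^ 3 * (8 * p ^ (4 * n - 3)) := by
          refine Nat.mul_lt_mul_of_pos_left ((sixth_le' n hn2).trans_le ?_) (pow_pos (by omega) 3)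
          exact Nat.mul_le_mul_left 8 (Nat.pow_le_pow_left hp _)
        _ = 8 * p ^ (4 * n) := by
          rw [show p ^ (4 * n) = p ^ 3 * p ^ (4 * n - 3) by rw [← pow_add]; congr 1; omega]; ring
        _ ≤ _ := Nat.mul_le_mul_left 8 h4

/-- The count contradiction. -/
theorem count_contradiction {p K V c L d n X : ℕ} (hp : 3 ≤ p) (hd : p + 1 ≤ d) (hVd : d ^ n ≤ V)
    (hL : L ≤ n * n ∨ (L ≤ p * (n * n) ∧ p ^ 2 + 1 ≤ d)) (hX : X ≤ K) (hK : K = p * (L - 1)) (hV : 1 < V)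
    (hc : c ^ p ≤ V) (hcount : (p - 1) * (V - 1) ≤ X * (c - 1)) : False := by
  -- reduce to a statement on `p`th powers
  have hVc : (p - 1) * V ≤ K * c := by
    have h1 : (p - 1) * (V - 1) ≤ K * (c - 1) := hcount.trans (Nat.mul_le_mul_right _ hX)
    rcases Nat.eq_zero_or_pos K with h0 | h0
    · exfalso
      rw [h0, zero_mul] at h1
      have : 0 < (p - 1) * (V - 1) := Nat.mul_pos (by omega) (by omega)
      omega
    · have hKp : p ≤ K := by
        rw [hK] at h0 ⊢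
        exact Nat.le_mul_of_pos_right p (Nat.pos_of_mul_pos_left h0)
      have hc1 : 1 ≤ c := by
        by_contra h
        rw [Nat.lt_one_iff.mp (not_le.mp h)] at h1
        simp only [Nat.zero_sub, mul_zero] at h1
        have : 0 < (p - 1) * (V - 1) := Nat.mul_pos (by omega) (by omega)
        omega
      have e1 : (p - 1) * V = (p - 1) * (V - 1) + (p - 1) := by
        conv_lhs => rw [show V = V - 1 + 1 by omega, mul_add, mul_one]
      have e2 : K * c = K * (c - 1) + K := by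
        conv_lhs => rw [show c = c - 1 + 1 by omega, mul_add, mul_one]
      omega
  have h1 : (p - 1) ^ p * V ^ p ≤ K ^ p * V := by
    rw [← mul_pow]
    refine (Nat.pow_le_pow_left hVc p).trans ?_
    rw [mul_pow]
    exact Nat.mul_le_mul_left _ hc
  have h2 : (p - 1) ^ p * V ^ (p - 1) ≤ K ^ p := by
    refine Nat.le_of_mul_le_mul_right ?_ (show 0 < V by omega)
    rwa [mul_assoc, ← pow_succ, Nat.sub_add_cancel (by omega : 1 ≤ p)]
  -- `2p ≤ 3(p-1)`
  have h3 : 2 * K ≤ 3 * (p - 1) * (L - 1) := by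
    rw [hK, ← mul_assoc]
    exact Nat.mul_le_mul_right _ (by omega)
  have h4 : (2 * (p - 1)) ^ p * (d ^ n) ^ (p - 1) ≤ (3 * (p - 1) * (L - 1)) ^ p := by
    refine le_trans ?_ (Nat.pow_le_pow_left h3 p)
    rw [mul_pow, mul_pow, mul_assoc]
    exact Nat.mul_le_mul_left _ ((Nat.mul_le_mul_left _ (Nat.pow_le_pow_left hVd _)).trans h2)
  have h5 : 2 ^ p * (d ^ n) ^ (p - 1) ≤ (3 * (L - 1)) ^ p := by
    refine Nat.le_of_mul_le_mul_left ?_ (pow_pos (show 0 < p - 1 by omega) p)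
    rw [← mul_assoc, ← mul_pow, ← mul_pow, show (p - 1) * 2 = 2 * (p - 1) by ring,
      show (p - 1) * (3 * (L - 1)) = 3 * (p - 1) * (L - 1) by ring]
    exact h4
  have h6 : (8 * d ^ (2 * n)) ^ p ≤ ((3 * (L - 1)) ^ 3) ^ p := by
    rw [← pow_mul (3 * (L - 1)) 3 p, mul_comm 3 p, pow_mul (3 * (L - 1)) p 3]
    refine le_trans ?_ (Nat.pow_le_pow_left h5 3)
    rw [mul_pow, mul_pow, ← pow_mul, ← pow_mul, ← pow_mul, ← pow_mul]
    rw [show (8 : ℕ) ^ p = 2 ^ (p * 3) by rw [show (8 : ℕ) = 2 ^ 3 by norm_num, ← pow_mul, mul_comm]]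
    refine Nat.mul_le_mul_left _ (Nat.pow_le_pow_right (by omega) ?_)
    nlinarith [show 2 * p ≤ (p - 1) * 3 by omega, Nat.zero_le n]
  exact absurd h6 (not_le.mpr (Nat.pow_lt_pow_left (count_lt hp hd hL) (by omega)))

end CfsgLib.OddRegular
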