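import Cfsg.Agent.OddRegular.Subset
import Cfsg.Agent.PGroup.Critical
import Mathlib.LinearAlgebra.Dimension.Finite
import Mathlib.LinearAlgebra.FreeModule.Finite.Matrix
import Mathlib.RingTheory.IntegralDomain
import Mathlib.GroupTheory.SpecificGroups.Cyclic

/-!
Coprime modules: fixed points of elements of odd prime order and their independence.
-/

set_option autoImplicit false

namespace CfsgLib.OddRegular

variable {p : ℕ} [hp : Fact p.Prime] {Γ V : Type*} [Group Γ] [AddCommGroup V] [DistribMulAction Γ V]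

/-- The fixed points of a set of operators. -/
def fixS (S : Set Γ) : AddSubgroup V where
  carrier := {v | ∀ s ∈ S, s • v = v}
  zero_mem' s _ := smul_zero s
  add_mem' ha hb s hs := by rw [smul_add, ha s hs, hb s hs]
  neg_mem' ha s hs := by rw [smul_neg, ha s hs]

/-- The subgroup of operators fixing a vector. -/
def stabV (v : V) : Subgroup Γ := MulAction.stabilizer Γ v

omit hp in
theorem smul_sum_pow {y : Γ} (hy : y ^ p = 1) (w : V) :
    y • ∑ t ∈ Finset.range p, y ^ t • w = ∑ t ∈ Finset.range p, y ^ t • w := by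
  rw [Finset.smul_sum]
  simp only [← mul_smul, ← pow_succ']
  have h1 := Finset.sum_range_succ (fun t => y ^ t • w) p
  rw [Finset.sum_range_succ' (fun t => y ^ t • w) p] at h1
  simp only [hy, pow_zero] at h1
  exact add_right_cancel h1

theorem eq_zero_of_nsmul [Finite V] (hV : ¬ p ∣ Nat.card V) {w : V} (h : p • w = 0) : w = 0 := by
  by_contra hw
  exact hV ((addOrderOf_eq_prime h hw) ▸ addOrderOf_dvd_natCard w)

/-- Two commuting elements of order `p` have a product with a fixed point. -/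
theorem exists_fix_pair [Finite V] (hV : ¬ p ∣ Nat.card V) {a b : Γ} (hc : Commute a b) (ha : a ^ p = 1)
    (hb : b ^ p = 1) {W : AddSubgroup V} (hW : ∀ w ∈ W, a • w ∈ W ∧ b • w ∈ W) (hW1 : W ≠ ⊥)
    (hfix : ∀ w ∈ W, a • w = w → w = 0) :
    ∃ i : ℕ, ∃ w ∈ W, w ≠ 0 ∧ (b * a ^ i) • w = w := by
  by_contra hcon
  push Not at hcon
  have hstab : ∀ (u : Γ), (∀ w ∈ W, u • w ∈ W) → ∀ (t : ℕ), ∀ w ∈ W, u ^ t • w ∈ W := fun u hu t => by
    induction t with
    | zero => intro w hw; simpa using hw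
    | succ k ih => intro w hw; rw [pow_succ, mul_smul]; exact ih _ (hu w hw)
  have hbai : ∀ i : ℕ, ∀ w ∈ W, (b * a ^ i) • w ∈ W := fun i w hw => by
    rw [mul_smul]; exact (hW _ (hstab a (fun w hw => (hW w hw).1) i w hw)).2
  have hfixk : ∀ k, 0 < k → k < p → ∀ w ∈ W, (a ^ k) • w = w → w = 0 := fun k hk hkp w hw hwk => by
    refine hfix w hw (MulAction.mem_stabilizer_iff.mp ?_)
    have hco : Nat.Coprime k (orderOf a) := Nat.Coprime.coprime_dvd_right (orderOf_dvd_of_pow_eq_one ha)
      (Nat.coprime_comm.mp ((Nat.Prime.coprime_iff_not_dvd hp.out).mpr (Nat.not_dvd_of_pos_of_lt hk hkp)))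
    obtain ⟨m, hm⟩ := exists_pow_eq_self_of_coprime hco
    exact hm ▸ Subgroup.pow_mem _ (MulAction.mem_stabilizer_iff.mpr hwk) m
  obtain ⟨w, hw, hw0⟩ := W.bot_or_exists_ne_zero.resolve_left hW1
  have hzero : ∀ i : ℕ, ∑ t ∈ Finset.range p, (b * a ^ i) ^ t • w = 0 := fun i => by
    by_contra h0
    exact hcon i _ (W.sum_mem fun t _ => hstab _ (hbai i) t w hw) h0
      (smul_sum_pow (by rw [(hc.symm.pow_right i).mul_pow, hb, ← pow_mul, mul_comm, pow_mul, ha, one_pow, one_mul]) w)
  have hin : ∀ t ∈ Finset.range p, ∑ i ∈ Finset.range p, (b * a ^ i) ^ t • w = if t = 0 then p • w else 0 := by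
    intro t ht
    rcases Nat.eq_zero_or_pos t with rfl | htp
    · simp [Finset.sum_const]
    · rw [if_neg htp.ne']
      have e : ∑ i ∈ Finset.range p, (b * a ^ i) ^ t • w = b ^ t • ∑ i ∈ Finset.range p, (a ^ t) ^ i • w := by
        rw [Finset.smul_sum]
        refine Finset.sum_congr rfl fun i _ => ?_
        rw [(hc.symm.pow_right i).mul_pow, mul_smul, ← pow_mul, ← pow_mul, mul_comm i t]
      rw [e, hfixk t htp (Finset.mem_range.mp ht) _ (W.sum_mem fun i _ => hstab _ (hstab a (fun w hw => (hW w hw).1) t) i w hw)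
        (smul_sum_pow (by rw [← pow_mul, mul_comm, pow_mul, ha, one_pow]) w), smul_zero]
  have h1 : p • w = 0 := by
    have h2 : ∑ i ∈ Finset.range p, ∑ t ∈ Finset.range p, (b * a ^ i) ^ t • w = 0 :=
      Finset.sum_eq_zero fun i _ => hzero i
    rw [Finset.sum_comm, Finset.sum_congr rfl hin, Finset.sum_ite_eq' (Finset.range p) 0 (fun _ => p • w),
      if_pos (Finset.mem_range.mpr hp.out.pos)] at h2
    exact h2
  exact hw0 (eq_zero_of_nsmul hV h1)

/-- An element with a conjugate differing from it by a fixed-point-free central element of order `p`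
fixes at most a `p`th root of the space. -/
theorem card_fix_pow [Finite V] (hV : ¬ p ∣ Nat.card V) {y ζ m : Γ} (hy : y ^ p = 1) (hζ : ζ ^ p = 1)
    (hyζ : Commute y ζ) (hmζ : Commute m ζ) (hfpf : ∀ w : V, ζ • w = w → w = 0) (hm : m * y * m⁻¹ = y * ζ) :
    Nat.card {v : V // y • v = v} ^ p ≤ Nat.card V := by
  classical
  haveI := Fintype.ofFinite V
  have hconj : ∀ k : ℕ, m ^ k * y * (m ^ k)⁻¹ = y * ζ ^ k := by
    intro k
    induction k with
    | zero => simp
    | succ k ih =>
      calc m ^ (k + 1) * y * (m ^ (k + 1))⁻¹ = m * (m ^ k * y * (m ^ k)⁻¹) * m⁻¹ := by rw [pow_succ']; group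
        _ = (m * y * m⁻¹) * (m * ζ ^ k * m⁻¹) := by rw [ih]; group
        _ = y * ζ ^ (k + 1) := by
          rw [hm, (hmζ.pow_right k).eq, mul_inv_cancel_right, mul_assoc, ← pow_succ']
  have hfk : ∀ (k : Fin p) (v : V), y • v = v → (y * ζ ^ (k : ℕ)) • (m ^ (k : ℕ) • v) = m ^ (k : ℕ) • v :=
    fun k v hv => by
      rw [← hconj k, mul_smul, mul_smul, inv_smul_smul, hv]
  let Φ : (Fin p → {v : V // y • v = v}) → V := fun f => ∑ k : Fin p, m ^ (k : ℕ) • (f k : V)
  let P : Fin p → V → V := fun i w => ∑ t ∈ Finset.range p, (y * ζ ^ (i : ℕ)) ^ t • w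
  have hP : ∀ (i k : Fin p) (w : V), (y * ζ ^ (k : ℕ)) • w = w → P i w = if i = k then p • w else 0 := by
    intro i k w hw
    have hfix : ∀ t : ℕ, (y * ζ ^ (k : ℕ)) ^ t • w = w := fun t =>
      MulAction.mem_stabilizer_iff.mp (Subgroup.pow_mem _ (MulAction.mem_stabilizer_iff.mpr hw) t)
    by_cases hik : i = k
    · subst hik; simp [P, hfix, Finset.sum_const]
    · rw [if_neg hik]
      by_cases hζ1 : ζ = 1
      · have hw0 : w = 0 := hfpf w (by rw [hζ1, one_smul])
        simp [P, hw0]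
      set δ : Γ := (ζ ^ (k : ℕ))⁻¹ * ζ ^ (i : ℕ) with hδ
      have hδp : δ ^ p = 1 := by
        rw [hδ, (((Commute.refl ζ).pow_pow (k : ℕ) (i : ℕ)).inv_left).mul_pow, inv_pow, ← pow_mul, ← pow_mul,
          mul_comm (k : ℕ), mul_comm (i : ℕ), pow_mul, pow_mul, hζ, one_pow, one_pow, inv_one, one_mul]
      have hsum : P i w = ∑ t ∈ Finset.range p, δ ^ t • w := by
        refine Finset.sum_congr rfl fun t _ => ?_
        have hcy : Commute (y * ζ ^ (k : ℕ)) δ := by
          refine Commute.mul_left ?_ ?_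
          · exact ((hyζ.pow_right _).inv_right).mul_right (hyζ.pow_right _)
          · exact (((Commute.refl ζ).pow_pow _ _).inv_right).mul_right ((Commute.refl ζ).pow_pow _ _)
        rw [show y * ζ ^ (i : ℕ) = (y * ζ ^ (k : ℕ)) * δ by rw [hδ]; group, hcy.mul_pow,
          (hcy.pow_pow t t).eq, mul_smul, hfix]
      rw [hsum]
      refine hfpf _ ?_
      set u := ∑ t ∈ Finset.range p, δ ^ t • w
      have hu : δ • u = u := smul_sum_pow hδp w
      have hne : δ ≠ 1 := fun e => by
        rw [hδ, inv_mul_eq_one] at e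
        have hinj := pow_injOn_Iio_orderOf (x := ζ)
        rw [orderOf_eq_prime hζ hζ1] at hinj
        exact hik (Fin.ext (hinj i.2 k.2 e.symm))
      obtain ⟨n, hn⟩ : ∃ n, δ ^ n = ζ := by
        have hδm : δ ∈ Subgroup.zpowers ζ := Subgroup.mul_mem _
          (Subgroup.inv_mem _ (Subgroup.npow_mem_zpowers ζ _)) (Subgroup.npow_mem_zpowers ζ _)
        have hcard : Nat.card (Subgroup.zpowers ζ) = p := by rw [Nat.card_zpowers, orderOf_eq_prime hζ hζ1]
        have := mem_powers_of_prime_card (G := Subgroup.zpowers ζ) hcard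
          (g := ⟨δ, hδm⟩) (g' := ⟨ζ, Subgroup.mem_zpowers ζ⟩) (by simpa [Subtype.ext_iff] using hne)
        obtain ⟨n, hn⟩ := Submonoid.mem_powers_iff _ _ |>.mp this
        exact ⟨n, congrArg Subtype.val hn⟩
      exact hn ▸ MulAction.mem_stabilizer_iff.mp (Subgroup.pow_mem _ (MulAction.mem_stabilizer_iff.mpr hu) n)
  have hinj : Function.Injective Φ := by
    intro f g hfg
    funext i
    have hadd : ∀ (h : Fin p → {v : V // y • v = v}), P i (Φ h) = p • (m ^ (i : ℕ) • (h i : V)) := fun h => by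
      have e : P i (Φ h) = ∑ k : Fin p, P i (m ^ (k : ℕ) • (h k : V)) := by
        simp only [P, Φ, Finset.smul_sum]; rw [Finset.sum_comm]
      rw [e, Finset.sum_congr rfl (fun k _ => hP i k _ (hfk k _ (h k).2)), Finset.sum_ite_eq, if_pos (Finset.mem_univ _)]
    have h1 : p • (m ^ (i : ℕ) • ((f i : V) - g i)) = 0 := by
      rw [smul_sub, nsmul_sub, ← hadd f, ← hadd g, hfg, sub_self]
    have h2 := eq_zero_of_nsmul hV h1
    exact Subtype.ext (sub_eq_zero.mp ((smul_eq_zero_iff_eq _).mp h2))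
  have := Nat.card_le_card_of_injective Φ hinj
  rwa [Nat.card_fun, Nat.card_fin] at this

end CfsgLib.OddRegular
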