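import Cfsg.Agent.OddRegular.Primitive

/-!
For an element `x` of order dividing an odd prime `p` in a normal `p`-subgroup, some vector of a coprime
module is fixed by no conjugate of `x`.
-/

set_option autoImplicit false

namespace CfsgLib.OddRegular

universe v

variable {p : ℕ} [hp : Fact p.Prime]

/-- The statement proved by induction on the order of the module. -/
def Stmt (p n : ℕ) : Prop :=
  ∀ (V Γ : Type v) [AddCommGroup V] [Finite V] [Group Γ] [Finite Γ] [DistribMulAction Γ V] (P : Subgroup Γ)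
    [P.Normal] (x : Γ), Nat.card V = n → IsPGroup p P → ¬ p ∣ n → x ∈ P → x ^ p = 1 → (∃ w : V, x • w ≠ w) →
    ∃ w : V, ∀ g : Γ, (g * x * g⁻¹) • w ≠ w

omit hp in
/-- Applying the induction hypothesis to the image of a group acting on a smaller module. -/
theorem of_image {n : ℕ} (ih : Stmt.{v} p n) {W Γ : Type v} [AddCommGroup W] [Finite W] [Group Γ] [Finite Γ]
    [DistribMulAction Γ W] (P : Subgroup Γ) [P.Normal] (x : Γ) (hW : Nat.card W = n) (hP : IsPGroup p P)
    (hn : ¬ p ∣ n) (hx : x ∈ P) (hxp : x ^ p = 1) (hmove : ∃ w : W, x • w ≠ w) :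
    ∃ w : W, ∀ g : Γ, (g * x * g⁻¹) • w ≠ w := ih W Γ P x hW hP hn hx hxp hmove

section Irreducible

variable {V Γ : Type v} [AddCommGroup V] [Finite V] [Group Γ] [Finite Γ] [DistribMulAction Γ V] [FaithfulSMul Γ V]

set_option maxHeartbeats 800000 in
theorem imprimitive (hp2 : p ≠ 2) (hV : ¬ p ∣ Nat.card V) (ih : ∀ n < Nat.card V, Stmt.{v} p n)
    (hirr : ∀ W : AddSubgroup V, (∀ g : Γ, ∀ w ∈ W, g • w ∈ W) → W = ⊥ ∨ W = ⊤)
    (P : Subgroup Γ) [hPn : P.Normal] (hP : IsPGroup p P) (U : Subgroup Γ) (hUP : U ≤ P) [hUn : U.Normal]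
    (hUc : ∀ a ∈ U, ∀ b ∈ U, a * b = b * a) (hUe : ∀ u ∈ U, u ^ p = 1) {u : Γ} (hu : u ∈ U) (hu1 : u ≠ 1)
    (hUnc : ¬ U ≤ Subgroup.zpowers u) {x : Γ} (hx : x ∈ P) (hxp : x ^ p = 1) (hx1 : x ≠ 1) :
    ∃ w : V, ∀ g : Γ, (g * x * g⁻¹) • w ≠ w := by
  classical
  have hfU : ∀ w : V, (∀ a ∈ U, a • w = w) → w = 0 := by
    let F : AddSubgroup V := fixS (U : Set Γ)
    have hF : ∀ g : Γ, ∀ w ∈ F, g • w ∈ F := fun g w hw a ha => by
      have h1 : g⁻¹ * a * g ∈ U := by simpa using hUn.conj_mem a ha g⁻¹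
      have h2 := hw _ h1
      rw [mul_smul, mul_smul, inv_smul_eq_iff] at h2
      exact h2
    intro w hw
    rcases hirr F hF with h | h
    · have : w ∈ F := hw
      rw [h] at this; exact this
    · exact absurd (FaithfulSMul.eq_of_smul_eq_smul fun v : V => by
        rw [one_smul]; exact (show v ∈ F from h ▸ AddSubgroup.mem_top v) u hu) hu1
  let Ω := {H : Subgroup Γ // H ≤ U ∧ (∀ a ∈ U, a ∉ H → U ≤ H ⊔ Subgroup.zpowers a) ∧
    ∃ w : V, w ≠ 0 ∧ ∀ h ∈ H, h • w = w}
  -- an element of `Ω`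
  have hΩne : Nonempty Ω := by
    haveI : Nontrivial V := by
      by_contra hc
      rw [not_nontrivial_iff_subsingleton] at hc
      exact hx1 (FaithfulSMul.eq_of_smul_eq_smul fun w : V => Subsingleton.elim _ _)
    obtain ⟨W, ⟨hW0, hWi⟩, hWmin⟩ := (Set.toFinite {W : AddSubgroup V | W ≠ ⊥ ∧ ∀ t ∈ U, ∀ w ∈ W, t • w ∈ W}).exists_minimal
      ⟨⊤, top_ne_bot, fun _ _ _ _ => AddSubgroup.mem_top _⟩
    let H : Subgroup Γ :=
      { carrier := {a | a ∈ U ∧ ∀ w ∈ W, a • w = w}
        one_mem' := ⟨U.one_mem, fun w _ => one_smul Γ w⟩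
        mul_mem' := fun {a b} ha hb => ⟨U.mul_mem ha.1 hb.1, fun w hw => by rw [mul_smul, hb.2 w hw, ha.2 w hw]⟩
        inv_mem' := fun {a} ha => ⟨U.inv_mem ha.1, fun w hw => by rw [inv_smul_eq_iff, ha.2 w hw]⟩ }
    have hone : ∀ a ∈ U, ∀ w ∈ W, w ≠ 0 → a • w = w → a ∈ H := by
      intro a ha w hw hw0 haw
      let F : AddSubgroup V := W ⊓ fixS {a}
      have hF : F ≠ ⊥ := fun e => hw0 (by
        have : w ∈ F := ⟨hw, fun s hs => by rw [Set.mem_singleton_iff] at hs; subst hs; exact haw⟩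
        rw [e] at this; exact this)
      have hFi : ∀ t ∈ U, ∀ w ∈ F, t • w ∈ F := fun t ht w hw => ⟨hWi t ht w hw.1, fun s hs => by
        rw [Set.mem_singleton_iff] at hs; subst hs
        rw [← mul_smul, hUc s ha t ht, mul_smul, hw.2 s rfl]⟩
      have hle : W ≤ F := hWmin ⟨hF, hFi⟩ inf_le_left
      exact ⟨ha, fun w' hw' => (hle hw').2 a rfl⟩
    obtain ⟨w₀, hw₀, hw₀0⟩ := W.bot_or_exists_ne_zero.resolve_left hW0
    refine ⟨⟨H, fun a ha => ha.1, fun a ha haH b hb => ?_, w₀, hw₀0, fun h hh => hh.2 w₀ hw₀⟩⟩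
    obtain ⟨i, w, hw, hw0, hfix⟩ := exists_fix_pair hV (a := a) (b := b) (hUc a ha b hb) (hUe a ha) (hUe b hb)
      (W := W) (fun w hw => ⟨hWi a ha w hw, hWi b hb w hw⟩) hW0 fun w hw haw => by
        by_contra hw0
        exact haH (hone a ha w hw hw0 haw)
    have h1 := hone _ (U.mul_mem hb (U.pow_mem ha i)) w hw hw0 hfix
    rw [show b = b * a ^ i * (a ^ i)⁻¹ by group]
    exact Subgroup.mul_mem _ (Subgroup.mem_sup_left h1)
      (Subgroup.inv_mem _ (Subgroup.mem_sup_right (Subgroup.npow_mem_zpowers a i)))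
  -- conjugation on `Ω`
  have hact : ∀ (g : Γ) (H : Ω), H.1.map (MulAut.conj g).toMonoidHom ≤ U ∧
      (∀ a ∈ U, a ∉ H.1.map (MulAut.conj g).toMonoidHom → U ≤ H.1.map (MulAut.conj g).toMonoidHom ⊔ Subgroup.zpowers a) ∧
      ∃ w : V, w ≠ 0 ∧ ∀ h ∈ H.1.map (MulAut.conj g).toMonoidHom, h • w = w := by
    intro g H
    obtain ⟨hHU, hmax, w, hw0, hw⟩ := H.2
    refine ⟨?_, fun a ha haH b hb => ?_, g • w, (smul_ne_zero_iff_ne g).mpr hw0, ?_⟩
    · rintro _ ⟨h, hh, rfl⟩; exact hUn.conj_mem h (hHU hh) g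
    · have ha' : g⁻¹ * a * g ∈ U := by simpa using hUn.conj_mem a ha g⁻¹
      have haH' : g⁻¹ * a * g ∉ H.1 := fun h => haH ⟨_, h, by simp [mul_assoc]⟩
      have := Subgroup.mem_map_of_mem (MulAut.conj g).toMonoidHom
        (hmax _ ha' haH' (show g⁻¹ * b * g ∈ U by simpa using hUn.conj_mem b hb g⁻¹))
      rw [Subgroup.map_sup, MonoidHom.map_zpowers] at this
      simpa [mul_assoc] using this
    · rintro _ ⟨h, hh, rfl⟩
      show (g * h * g⁻¹) • g • w = g • w
      rw [← mul_smul, inv_mul_cancel_right, mul_smul, hw h hh]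
  letI : MulAction Γ Ω :=
    { smul := fun g H => ⟨_, hact g H⟩
      one_smul := fun H => Subtype.ext (by
        show H.1.map (MulAut.conj (1 : Γ)).toMonoidHom = H.1
        rw [map_one]
        exact Subgroup.map_id H.1)
      mul_smul := fun g g' H => Subtype.ext (by
        show H.1.map (MulAut.conj (g * g')).toMonoidHom =
          (H.1.map (MulAut.conj g').toMonoidHom).map (MulAut.conj g).toMonoidHom
        rw [Subgroup.map_map, map_mul]
        rfl) }
  let C : Ω → AddSubgroup V := fun H => fixS (H.1 : Set Γ)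
  have hCsmul : ∀ (g : Γ) (H : Ω), ∀ w ∈ C H, g • w ∈ C (g • H) := by
    rintro g H w hw _ ⟨h, hh, rfl⟩
    show (g * h * g⁻¹) • g • w = g • w
    rw [← mul_smul, inv_mul_cancel_right, mul_smul, hw h hh]
  haveI : Finite Ω := Subtype.finite
  haveI := Fintype.ofFinite Ω
  haveI := Fintype.ofFinite Γ
  let e : Ω → V → V := fun H w => ∑ h : H.1, (h : Γ) • w
  have he : ∀ (H K : Ω), ∀ w ∈ C K, e H w = if H = K then Nat.card H.1 • w else 0 := by
    intro H K w hw
    by_cases hHK : H = K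
    · subst hHK
      rw [if_pos rfl, Nat.card_eq_fintype_card, ← Finset.card_univ, ← Finset.sum_const]
      exact Finset.sum_congr rfl fun h _ => hw h h.2
    · rw [if_neg hHK]
      refine hfU _ fun a ha => ?_
      have h1 : ∀ a ∈ H.1, a • e H w = e H w := fun a ha => by
        simp only [e, Finset.smul_sum, ← mul_smul]
        exact Fintype.sum_equiv (Equiv.mulLeft (⟨a, ha⟩ : H.1)) _ _ fun h => rfl
      have h2 : ∀ a ∈ K.1, a • e H w = e H w := fun a ha => by
        simp only [e, Finset.smul_sum]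
        refine Finset.sum_congr rfl fun h _ => ?_
        rw [← mul_smul, hUc a (K.2.1 ha) h (H.2.1 h.2), mul_smul, hw a ha]
      have h3 : H.1 ⊔ K.1 ≤ MulAction.stabilizer Γ (e H w) := sup_le h1 h2
      refine h3 (?_ : a ∈ H.1 ⊔ K.1)
      by_cases hKH : K.1 ≤ H.1
      · obtain ⟨b, hb, hbK⟩ := SetLike.exists_of_lt (lt_of_le_of_ne hKH fun h => hHK (Subtype.ext h.symm))
        exact Subgroup.mem_sup_left ((sup_le hKH (Subgroup.zpowers_le.mpr hb))
          (K.2.2.1 b (H.2.1 hb) hbK ha))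
      · obtain ⟨b, hb, hbH⟩ := SetLike.not_le_iff_exists.mp hKH
        exact (sup_le le_sup_left (Subgroup.zpowers_le.mpr (Subgroup.mem_sup_right hb))) (H.2.2.1 b (K.2.1 hb) hbH ha)
  have hHp : ∀ H : Ω, ¬ Nat.card H.1 = 0 ∧ ∀ w : V, Nat.card H.1 • w = 0 → w = 0 := fun H => by
    refine ⟨Nat.card_pos.ne', fun w hw => ?_⟩
    obtain ⟨k, hk⟩ := IsPGroup.iff_card.mp (hP.to_le (H.2.1.trans hUP))
    rw [hk] at hw
    clear hk
    induction k with
    | zero => simpa using hw
    | succ k ihk => rw [pow_succ', mul_smul] at hw; exact ihk (eq_zero_of_nsmul hV hw)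
  -- components of a fixed vector
  have hcomp : ∀ (f : Ω → V), (∀ H, f H ∈ C H) → ∀ g : Γ, g • ∑ H, f H = ∑ H, f H → ∀ H, g • f H = f (g • H) := by
    intro f hf g hg H
    have h1 : g • ∑ K, f K = ∑ K, g • f (g⁻¹ • K) := by
      rw [Finset.smul_sum]
      exact Fintype.sum_equiv (MulAction.toPerm g) _ _ fun K => by simp
    have hsum : ∀ (f' : Ω → V), (∀ K, f' K ∈ C K) → e (g • H) (∑ K, f' K) = Nat.card (g • H).1 • f' (g • H) := by
      intro f' hf'
      have : e (g • H) (∑ K, f' K) = ∑ K, e (g • H) (f' K) := by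
        simp only [e, Finset.smul_sum]; rw [Finset.sum_comm]
      rw [this, Finset.sum_congr rfl fun K _ => he (g • H) K _ (hf' K), Finset.sum_ite_eq, if_pos (Finset.mem_univ _)]
    have h2 := hsum f hf
    have h3 := hsum (fun K => g • f (g⁻¹ • K)) fun K => by
      have := hCsmul g _ _ (hf (g⁻¹ • K))
      rwa [smul_inv_smul] at this
    rw [← h1, hg, inv_smul_smul] at h3
    have h4 : Nat.card (g • H).1 • (g • f H - f (g • H)) = 0 := by
      rw [nsmul_sub, ← h3, ← h2, sub_self]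
    exact sub_eq_zero.mp ((hHp _).2 _ h4)
  by_cases hxΩ : ∀ H : Ω, x • H = H
  swap
  · -- a regular subset
    push Not at hxΩ
    obtain ⟨H₁, hH₁⟩ := hxΩ
    letI : MulAction P Ω := MulAction.compHom Ω P.subtype
    haveI := hΩne
    obtain ⟨D, D', hD, -, -⟩ := two_regular (P := P) (Ω := Ω) hP hp2 _ ⊤ Set.univ Set.finite_univ rfl
      Set.univ_nonempty fun _ _ _ _ => Set.mem_univ _
    choose w hw0 hw using fun H : Ω => H.2.2.2
    let f : Ω → V := fun H => if H ∈ D then w H else 0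
    have hf : ∀ H, f H ∈ C H := fun H => by
      simp only [f]; split_ifs
      · exact hw H
      · exact (C H).zero_mem
    refine ⟨∑ H, f H, fun g hg => hH₁ ?_⟩
    set y := g * x * g⁻¹ with hy
    have hyP : y ∈ P := hPn.conj_mem x hx g
    have hmaps : Maps Set.univ D D (⟨y, hyP⟩ : P) := fun H _ => by
      have h1 := hcomp f hf y hg H
      show y • H ∈ D ↔ H ∈ D
      constructor <;> intro hh <;> by_contra hc <;> simp only [f, if_pos hh, if_neg hc, smul_zero] at h1
      · exact hw0 _ h1.symm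
      · exact hw0 _ ((smul_eq_zero_iff_eq y).mp h1)
    have h2 := hD _ (Subgroup.mem_top _) hmaps (g • H₁) (Set.mem_univ _)
    change y • g • H₁ = g • H₁ at h2
    rwa [hy, ← mul_smul, inv_mul_cancel_right, mul_smul, smul_left_cancel_iff] at h2
  · -- `x` fixes every component
    obtain ⟨H₀, hmove⟩ : ∃ H₀ : Ω, ∃ w ∈ C H₀, x • w ≠ w := by
      by_contra hc
      push Not at hc
      let S : AddSubgroup V := ⨆ H : Ω, C H
      have hS : ∀ g : Γ, ∀ w ∈ S, g • w ∈ S := fun g w hw => by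
        induction hw using AddSubgroup.iSup_induction' with
        | hp H w hw => exact AddSubgroup.mem_iSup_of_mem (g • H) (hCsmul g H w hw)
        | h1 => rw [smul_zero]; exact S.zero_mem
        | hadd a b _ _ ha hb => rw [smul_add]; exact S.add_mem ha hb
      rcases hirr S hS with h | h
      · obtain ⟨H⟩ := hΩne
        obtain ⟨w, hw0, hw⟩ := H.2.2.2
        have : w ∈ S := AddSubgroup.mem_iSup_of_mem H hw
        rw [h] at this; exact hw0 this
      · have hfx : ∀ w ∈ S, x • w = w := fun w hw => by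
          induction hw using AddSubgroup.iSup_induction' with
          | hp H w hw => exact hc H w hw
          | h1 => exact smul_zero x
          | hadd a b _ _ ha hb => rw [smul_add, ha, hb]
        exact hx1 (FaithfulSMul.eq_of_smul_eq_smul fun w : V => by
          rw [one_smul]; exact hfx w (h ▸ AddSubgroup.mem_top w))
    set St : Subgroup Γ := MulAction.stabilizer Γ H₀ with hSt
    letI actW : DistribMulAction St (C H₀) :=
      { smul := fun g w => ⟨(g : Γ) • (w : V), by have := hCsmul g H₀ w w.2; rwa [show (g : Γ) • H₀ = H₀ from g.2] at this⟩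
        one_smul := fun w => Subtype.ext (one_smul Γ (w : V))
        mul_smul := fun a b w => Subtype.ext (mul_smul (a : Γ) b (w : V))
        smul_zero := fun g => Subtype.ext (smul_zero (g : Γ))
        smul_add := fun g a b => Subtype.ext (smul_add (g : Γ) _ _) }
    have hproper : Nat.card (C H₀) < Nat.card V := by
      refine lt_of_le_of_ne (Nat.card_le_card_of_injective _ Subtype.val_injective) fun e => ?_
      have htop : C H₀ = ⊤ := AddSubgroup.eq_top_of_card_eq _ e
      have hHbot : ∀ h ∈ H₀.1, h = 1 := fun h hh => FaithfulSMul.eq_of_smul_eq_smul fun w : V => by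
        rw [one_smul]; exact (show w ∈ C H₀ from htop ▸ AddSubgroup.mem_top w) h hh
      have := H₀.2.2.1 u hu (fun h => hu1 (hHbot u h))
      exact hUnc (this.trans (sup_le (fun h hh => (hHbot h hh).symm ▸ Subgroup.one_mem _) le_rfl))
    obtain ⟨w₀, hw₀, hw₀x⟩ := hmove
    obtain ⟨w, hw⟩ := ih _ hproper (C H₀) St (P.subgroupOf St) ⟨x, hxΩ H₀⟩ rfl
      (hP.comap_of_injective St.subtype St.subtype_injective) (fun h => hV (h.trans (AddSubgroup.card_addSubgroup_dvd_card _)))
      (Subgroup.mem_subgroupOf.mpr hx) (Subtype.ext hxp) ⟨⟨w₀, hw₀⟩, fun e => hw₀x (congrArg Subtype.val e)⟩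
    have horb : ∀ H : Ω, ∃ t : Γ, H ∈ MulAction.orbit Γ H₀ → t • H₀ = H := fun H => by
      by_cases h : H ∈ MulAction.orbit Γ H₀
      · obtain ⟨t, ht⟩ := h; exact ⟨t, fun _ => ht⟩
      · exact ⟨1, fun h' => absurd h' h⟩
    choose t ht using horb
    let f : Ω → V := fun H => if H ∈ MulAction.orbit Γ H₀ then t H • (w : V) else 0
    have hf : ∀ H, f H ∈ C H := fun H => by
      simp only [f]; split_ifs with h
      · have := hCsmul (t H) H₀ _ w.2
        rwa [ht H h] at this
      · exact (C H).zero_mem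
    refine ⟨∑ H, f H, fun g hg => ?_⟩
    have hyfix : ∀ H : Ω, (g * x * g⁻¹) • H = H := fun H => by
      rw [mul_smul, mul_smul, hxΩ, smul_inv_smul]
    have hmem : g • H₀ ∈ MulAction.orbit Γ H₀ := MulAction.mem_orbit H₀ g
    have h1 := hcomp f hf _ hg (g • H₀)
    rw [hyfix] at h1
    simp only [f, if_pos hmem] at h1
    set τ := t (g • H₀)
    have hs : τ⁻¹ * g ∈ St := by
      rw [hSt, MulAction.mem_stabilizer_iff, mul_smul, inv_smul_eq_iff]
      exact (ht _ hmem).symm
    refine hw ⟨τ⁻¹ * g, hs⟩ (Subtype.ext ?_)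
    show (τ⁻¹ * g * x * (τ⁻¹ * g)⁻¹) • (w : V) = (w : V)
    rw [show τ⁻¹ * g * x * (τ⁻¹ * g)⁻¹ = τ⁻¹ * (g * x * g⁻¹) * τ by group, mul_smul, mul_smul, inv_smul_eq_iff]
    exact h1

theorem irreducible (hp2 : p ≠ 2) (hV : ¬ p ∣ Nat.card V) (ih : ∀ n < Nat.card V, Stmt.{v} p n)
    (hirr : ∀ W : AddSubgroup V, (∀ g : Γ, ∀ w ∈ W, g • w ∈ W) → W = ⊥ ∨ W = ⊤)
    (P : Subgroup Γ) [P.Normal] (hP : IsPGroup p P) {x : Γ} (hx : x ∈ P) (hxp : x ^ p = 1) (hx1 : x ≠ 1) :
    ∃ w : V, ∀ g : Γ, (g * x * g⁻¹) • w ≠ w := by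
  by_cases hprim : ∀ U : Subgroup Γ, U ≤ P → U.Normal → (∀ a ∈ U, ∀ b ∈ U, a * b = b * a) → (∀ u ∈ U, u ^ p = 1) →
      ∀ u ∈ U, u ≠ 1 → U ≤ Subgroup.zpowers u
  · exact primitive hp2 hV hirr P hP hprim hx hxp hx1
  · push Not at hprim
    obtain ⟨U, hUP, hUn, hUc, hUe, u, hu, hu1, hnc⟩ := hprim
    exact imprimitive hp2 hV ih hirr P hP U hUP hUc hUe hu hu1 hnc hx hxp hx1

end Irreducible

/-- Some vector is fixed by no conjugate of `x`. -/
theorem exists_moved (hp2 : p ≠ 2) : ∀ n : ℕ, Stmt.{v} p n := by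
  intro n
  induction n using Nat.strong_induction_on with
  | _ n ih =>
  intro V Γ _ _ _ _ _ P _ x hn hP hpn hx hxp ⟨w₀, hw₀⟩
  classical
  subst hn
  by_cases hirr : ∀ W : AddSubgroup V, (∀ g : Γ, ∀ w ∈ W, g • w ∈ W) → W = ⊥ ∨ W = ⊤
  · -- pass to the image in the units of the endomorphism ring
    let f : Γ →* (AddMonoid.End V)ˣ := (DistribMulAction.toAddMonoidEnd Γ V).toHomUnits
    haveI : Finite (AddMonoid.End V) := Finite.of_injective (fun f => (f : V → V)) DFunLike.coe_injective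
    letI act : DistribMulAction f.range V := DistribMulAction.compHom V ((Units.coeHom (AddMonoid.End V)).comp f.range.subtype)
    haveI : FaithfulSMul f.range V := ⟨fun {a b} h => Subtype.ext (Units.ext (AddMonoidHom.ext h))⟩
    haveI : (P.map f.rangeRestrict).Normal := Subgroup.Normal.map inferInstance _ f.rangeRestrict_surjective
    have hact : ∀ (g : Γ) (w : V), f.rangeRestrict g • w = g • w := fun _ _ => rfl
    obtain ⟨w, hw⟩ := irreducible (V := V) (Γ := f.range) hp2 hpn ih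
      (fun W hW => hirr W fun g w hw => hW (f.rangeRestrict g) w hw) (P.map f.rangeRestrict) (hP.map _)
      (Subgroup.mem_map_of_mem _ hx) (by rw [← map_pow, hxp, map_one])
      (fun e => hw₀ ((hact x w₀).symm.trans ((congrArg (· • w₀) e).trans (one_smul f.range w₀))))
    exact ⟨w, fun g => by rw [← hact, map_mul, map_mul, map_inv]; exact hw _⟩
  push Not at hirr
  obtain ⟨W, hW, hWb, hWt⟩ := hirr
  have hWlt : Nat.card W < Nat.card V := lt_of_le_of_ne (Nat.card_le_card_of_injective _ Subtype.val_injective)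
    fun e => hWt (AddSubgroup.eq_top_of_card_eq _ e)
  by_cases hxW : ∃ w ∈ W, x • w ≠ w
  · obtain ⟨w₁, hw₁, hw₁x⟩ := hxW
    letI : DistribMulAction Γ W :=
      { smul := fun g w => ⟨g • (w : V), hW g w w.2⟩
        one_smul := fun w => Subtype.ext (one_smul Γ (w : V))
        mul_smul := fun a b w => Subtype.ext (mul_smul a b (w : V))
        smul_zero := fun g => Subtype.ext (smul_zero g)
        smul_add := fun g a b => Subtype.ext (smul_add g _ _) }
    obtain ⟨w, hw⟩ := ih _ hWlt W Γ P x rfl hP (fun h => hpn (h.trans (AddSubgroup.card_addSubgroup_dvd_card _)))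
      hx hxp ⟨⟨w₁, hw₁⟩, fun e => hw₁x (congrArg Subtype.val e)⟩
    exact ⟨w, fun g e => hw g (Subtype.ext e)⟩
  · push Not at hxW
    let F : Γ → (V ⧸ W) →+ (V ⧸ W) := fun g => QuotientAddGroup.map W W (DistribSMul.toAddMonoidHom V g) (hW g)
    letI : DistribMulAction Γ (V ⧸ W) :=
      { smul := fun g q => F g q
        one_smul := fun q => QuotientAddGroup.induction_on q fun w => congrArg QuotientAddGroup.mk (one_smul Γ w)
        mul_smul := fun a b q => QuotientAddGroup.induction_on q fun w => congrArg QuotientAddGroup.mk (mul_smul a b w)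
        smul_zero := fun g => map_zero (F g)
        smul_add := fun g a b => map_add (F g) a b }
    have hcardW : Nat.card V = Nat.card (V ⧸ W) * Nat.card W := AddSubgroup.card_eq_card_quotient_mul_card_addSubgroup W
    have h1W : 1 < Nat.card W := by
      haveI : Nontrivial W := (AddSubgroup.nontrivial_iff_ne_bot W).mpr hWb
      exact Finite.one_lt_card
    have hlt : Nat.card (V ⧸ W) < Nat.card V := by
      rw [hcardW]; exact lt_mul_of_one_lt_right Nat.card_pos h1W
    obtain ⟨q, hq⟩ := ih _ hlt (V ⧸ W) Γ P x rfl hP (fun h => hpn (h.trans (hcardW ▸ dvd_mul_right _ _))) hx hxp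
      ⟨QuotientAddGroup.mk w₀, fun e => hw₀ (by
        have hd : x • w₀ - w₀ ∈ W := by
          rw [← QuotientAddGroup.eq_iff_sub_mem]; exact e
        have hiter : ∀ k : ℕ, x ^ k • w₀ = w₀ + k • (x • w₀ - w₀) := fun k => by
          induction k with
          | zero => simp
          | succ k ihk =>
            rw [pow_succ', mul_smul, ihk, smul_add, smul_comm x k, hxW _ hd, succ_nsmul]
            abel
        have h2 := hiter p
        rw [hxp, one_smul, left_eq_add] at h2
        exact sub_eq_zero.mp (eq_zero_of_nsmul hpn h2))⟩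
    obtain ⟨v, rfl⟩ := QuotientAddGroup.mk_surjective q
    exact ⟨v, fun g e => hq g (congrArg QuotientAddGroup.mk e)⟩

end CfsgLib.OddRegular
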