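import Cfsg.Agent.OddRegular.Fixed
import Cfsg.Agent.OddRegular.Arith
import Mathlib.LinearAlgebra.FreeModule.Finite.Basic
import Mathlib.LinearAlgebra.Dimension.Constructions
import Mathlib.RingTheory.Ideal.Quotient.Basic
import Mathlib.Algebra.Module.LinearMap.End
import Mathlib.FieldTheory.Finite.Basic
import Mathlib.Combinatorics.Enumerative.DoubleCounting

/-!
Regular vectors, primitive case: all normal elementary abelian subgroups inside `P` are cyclic.
-/

set_option autoImplicit false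

namespace CfsgLib.OddRegular

open scoped commutatorElement

variable {p : ℕ} [hp : Fact p.Prime]

omit hp in
/-- Homomorphisms into the units of a finite field killing a normal subgroup. -/
theorem hom_count {G : Type*} [Group G] [Finite G] {A : Type*} [Field A] [Finite A] (K : Subgroup G) [K.Normal] :
    Nat.card {φ : G →* Aˣ // ∀ k ∈ K, φ k = 1} ≤ K.index := by
  classical
  let Q := G ⧸ K
  haveI := Fintype.ofFinite Q
  haveI : Finite (G →* Aˣ) := Finite.of_injective (fun φ => (φ : G → Aˣ)) DFunLike.coe_injective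
  let j : {φ : G →* Aˣ // ∀ k ∈ K, φ k = 1} → (Q →* A) := fun φ =>
    (Units.coeHom A).comp (QuotientGroup.lift K φ.1 fun k hk => φ.2 k hk)
  have hj : Function.Injective j := fun a b h => Subtype.ext (MonoidHom.ext fun g => Units.ext (by
    have := DFunLike.congr_fun h (QuotientGroup.mk' K g)
    exact this))
  haveI : Finite (Q →* A) := Finite.of_injective (fun φ => (φ : Q → A)) DFunLike.coe_injective
  haveI := Fintype.ofFinite (Q →* A)
  have h1 := (linearIndependent_monoidHom Q A).fintype_card_le_finrank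
  rw [Module.finrank_fintype_fun_eq_card] at h1
  refine (Nat.card_le_card_of_injective j hj).trans ?_
  rw [Nat.card_eq_fintype_card, K.index_eq_card, Nat.card_eq_fintype_card]
  exact h1

variable {Γ V : Type*} [Group Γ] [Finite Γ] [AddCommGroup V] [Finite V] [DistribMulAction Γ V]

set_option maxHeartbeats 800000 in
theorem primitive [FaithfulSMul Γ V] (hp2 : p ≠ 2) (hV : ¬ p ∣ Nat.card V)
    (hirr : ∀ W : AddSubgroup V, (∀ g : Γ, ∀ w ∈ W, g • w ∈ W) → W = ⊥ ∨ W = ⊤)
    (P : Subgroup Γ) [hPn : P.Normal] (hP : IsPGroup p P)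
    (hprim : ∀ U : Subgroup Γ, U ≤ P → U.Normal → (∀ a ∈ U, ∀ b ∈ U, a * b = b * a) → (∀ u ∈ U, u ^ p = 1) →
      ∀ u ∈ U, u ≠ 1 → U ≤ Subgroup.zpowers u)
    {x : Γ} (hx : x ∈ P) (hxp : x ^ p = 1) (hx1 : x ≠ 1) : ∃ v : V, ∀ g : Γ, (g * x * g⁻¹) • v ≠ v := by
  classical
  have hp3 : 3 ≤ p := by have := hp.out.two_le; omega
  haveI : Nontrivial V := by
    by_contra hc
    rw [not_nontrivial_iff_subsingleton] at hc
    exact hx1 (FaithfulSMul.eq_of_smul_eq_smul fun v : V => Subsingleton.elim _ _)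
  -- the critical subgroup
  set R : Subgroup (MulAut P) := (MulAut.conjNormal : Γ →* MulAut P).range with hR
  obtain ⟨H', hH'⟩ := CfsgLib.PGroup.exists_critical hP R fun g => ⟨g, MulEquiv.ext fun a => Subtype.ext rfl⟩
  set H : Subgroup Γ := H'.map P.subtype with hH
  have hHP : H ≤ P := Subgroup.map_subtype_le H'
  have memH : ∀ {a : P}, (a : Γ) ∈ H ↔ a ∈ H' := fun {a} =>
    ⟨fun ⟨b, hb, e⟩ => (Subtype.ext e : b = a) ▸ hb, fun h => ⟨a, h, rfl⟩⟩
  haveI hHn : H.Normal := ⟨fun a ha g => by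
    obtain ⟨b, hb, rfl⟩ := ha
    exact ⟨MulAut.conjNormal g b, hH'.invariant _ ⟨g, rfl⟩ b hb, rfl⟩⟩
  set Z : Subgroup Γ := H ⊓ Subgroup.centralizer (H : Set Γ) with hZ
  haveI hZn : Z.Normal := Subgroup.normal_inf_normal _ _
  have hZH : Z ≤ H := inf_le_left
  have hZc : ∀ {c h}, c ∈ Z → h ∈ H → h * c = c * h := fun hc hh => Subgroup.mem_centralizer_iff.mp hc.2 _ hh
  have memZ : ∀ {a : P}, (a ∈ H' ∧ a ∈ Subgroup.centralizer (H' : Set P)) → (a : Γ) ∈ Z := fun {a} h =>
    ⟨memH.mpr h.1, Subgroup.mem_centralizer_iff.mpr fun k hk => by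
      obtain ⟨k', hk', rfl⟩ := hk
      exact congrArg Subtype.val (Subgroup.mem_centralizer_iff.mp h.2 k' hk')⟩
  have hC : ∀ y ∈ P, (∀ h ∈ H, h * y = y * h) → y ∈ Z := fun y hy hc => by
    have h1 : (⟨y, hy⟩ : P) ∈ Subgroup.centralizer (H' : Set P) :=
      Subgroup.mem_centralizer_iff.mpr fun k hk => Subtype.ext (hc k (memH.mpr hk))
    exact memZ (a := ⟨y, hy⟩) ⟨hH'.centralizer_le h1, h1⟩
  have hK : ∀ y ∈ P, ∀ h ∈ H, ⁅y, h⁆ ∈ Z := fun y hy h hh => by
    obtain ⟨h', hh', rfl⟩ := hh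
    rw [← commutatorElement_inv]
    refine Z.inv_mem ?_
    have := hH'.commutator_le (Subgroup.commutator_mem_commutator hh' (Subgroup.mem_top (⟨y, hy⟩ : P)))
    exact memZ (a := ⁅h', (⟨y, hy⟩ : P)⁆) this
  have hPw : ∀ h ∈ H, h ^ p ∈ Z := fun h hh => by
    obtain ⟨h', hh', rfl⟩ := hh
    exact memZ (a := h' ^ p) ⟨H'.pow_mem hh' p, hH'.pow_mem h' hh'⟩
  -- the central element of order `p`
  haveI : Nontrivial P := ⟨⟨⟨x, hx⟩, 1, fun e => hx1 (congrArg Subtype.val e)⟩⟩
  haveI := hP.center_nontrivial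
  obtain ⟨z', hz', hzo⟩ : ∃ z' : P, z' ∈ Subgroup.center P ∧ orderOf z' = p := by
    have hd : p ∣ Nat.card (Subgroup.center P) := by
      obtain ⟨n, hn0, hn⟩ := (hP.to_subgroup (Subgroup.center P)).nontrivial_iff_card.mp ‹_›
      exact hn ▸ dvd_pow_self p hn0.ne'
    obtain ⟨z', hz'⟩ := exists_prime_orderOf_dvd_card' (G := Subgroup.center P) p hd
    exact ⟨z', z'.2, by rw [orderOf_submonoid] at *; exact hz'⟩
  set z : Γ := (z' : Γ) with hz
  have hzo' : orderOf z = p := by rw [hz, Subgroup.orderOf_coe, hzo]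
  have hz1 : z ≠ 1 := fun e => hp.out.ne_one (by rw [← hzo', e, orderOf_one])
  have hzp : z ^ p = 1 := by rw [← hzo']; exact pow_orderOf_eq_one z
  have hzP : ∀ y ∈ P, y * z = z * y := fun y hy => congrArg Subtype.val (Subgroup.mem_center_iff.mp hz' ⟨y, hy⟩)
  have hzZ : z ∈ Z := hC z z'.2 fun h hh => hzP h (hHP hh)
  let U : Subgroup Γ :=
    { carrier := {u | u ∈ Z ∧ u ^ p = 1}
      one_mem' := ⟨Z.one_mem, one_pow p⟩
      mul_mem' := fun {a b} ha hb => ⟨Z.mul_mem ha.1 hb.1, by
        rw [(show Commute a b from hZc hb.1 (hZH ha.1)).mul_pow, ha.2, hb.2, one_mul]⟩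
      inv_mem' := fun {a} ha => ⟨Z.inv_mem ha.1, by rw [inv_pow, ha.2, inv_one]⟩ }
  haveI hUn : U.Normal := ⟨fun a ha g => ⟨hZn.conj_mem a ha.1 g, by rw [conj_pow, ha.2, mul_one, mul_inv_cancel]⟩⟩
  have hUz : ∀ u, u ∈ Z → u ^ p = 1 → u ∈ Subgroup.zpowers z := fun u hu hup =>
    hprim U (fun a ha => hHP (hZH ha.1)) hUn (fun a ha b hb => hZc hb.1 (hZH ha.1)) (fun a ha => ha.2) z
      ⟨hzZ, hzp⟩ hz1 ⟨hu, hup⟩
  have hzcen : ∀ u ∈ Subgroup.zpowers z, ∀ y ∈ P, y * u = u * y := fun u hu y hy => by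
    obtain ⟨i, rfl⟩ := Subgroup.mem_zpowers_iff.mp hu
    exact (show Commute y z from hzP y hy).zpow_right i
  have hzn : ∀ g : Γ, g * z * g⁻¹ ∈ Subgroup.zpowers z := fun g => by
    have := hUn.conj_mem z ⟨hzZ, hzp⟩ g
    exact hUz _ this.1 this.2
  -- `z` fixes only zero
  have hgen : ∀ u ∈ Subgroup.zpowers z, u ≠ 1 → z ∈ Subgroup.zpowers u := fun u hu hu1 => by
    have h1 : Subgroup.zpowers u = Subgroup.zpowers z := Subgroup.eq_of_le_of_card_ge (Subgroup.zpowers_le.mpr hu) (by
      rw [Nat.card_zpowers, Nat.card_zpowers, hzo', orderOf_eq_prime (p := p) ?_ hu1]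
      obtain ⟨i, rfl⟩ := Subgroup.mem_zpowers_iff.mp hu
      rw [← zpow_natCast, zpow_comm, zpow_natCast, hzp, one_zpow])
    exact h1 ▸ Subgroup.mem_zpowers z
  have hfpfz : ∀ v : V, z • v = v → v = 0 := by
    let W : AddSubgroup V := fixS {z}
    have hW : ∀ g : Γ, ∀ w ∈ W, g • w ∈ W := fun g w hw s hs => by
      rw [Set.mem_singleton_iff] at hs; subst hs
      have h1 : g⁻¹ * z * g ∈ MulAction.stabilizer Γ w := by
        have hzs : z ∈ MulAction.stabilizer Γ w := hw z rfl
        have := hzn g⁻¹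
        rw [inv_inv] at this
        exact Subgroup.zpowers_le.mpr hzs this
      rw [MulAction.mem_stabilizer_iff, mul_smul, mul_smul] at h1
      exact inv_smul_eq_iff.mp h1
    intro v hv
    rcases hirr W hW with h | h
    · have : v ∈ W := fun s hs => by rw [Set.mem_singleton_iff] at hs; subst hs; exact hv
      rw [h] at this; exact this
    · exact absurd (FaithfulSMul.eq_of_smul_eq_smul fun w : V => by
        rw [one_smul]; exact (show w ∈ W from h ▸ AddSubgroup.mem_top w) z rfl) hz1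
  have hfpfu : ∀ u ∈ Subgroup.zpowers z, u ≠ 1 → ∀ v : V, u • v = v → v = 0 := fun u hu hu1 v hv =>
    hfpfz v (MulAction.mem_stabilizer_iff.mp
      (Subgroup.zpowers_le.mpr (show u ∈ MulAction.stabilizer Γ v from hv) (hgen u hu hu1)))
  by_cases hxz : x ∈ Subgroup.zpowers z
  · obtain ⟨v, hv⟩ := exists_ne (0 : V)
    refine ⟨v, fun g e => hv (hfpfu _ ?_ (fun e1 => hx1 (conj_eq_one_iff.mp e1)) v e)⟩
    obtain ⟨i, rfl⟩ := Subgroup.mem_zpowers_iff.mp hxz
    rw [← conj_zpow]
    exact Subgroup.zpow_mem _ (hzn g) i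
  -- commutators of elements of order `p` with `H`
  have hadd : ∀ y ∈ P, ∀ a ∈ H, ∀ b ∈ H, ⁅y, a * b⁆ = ⁅y, a⁆ * ⁅y, b⁆ := fun y hy a ha b hb => by
    have h1 := hZc (hK y hy b hb) ha
    calc ⁅y, a * b⁆ = ⁅y, a⁆ * (a * ⁅y, b⁆ * a⁻¹) := by simp [commutatorElement_def, mul_assoc]
      _ = _ := by rw [h1, mul_inv_cancel_right]
  have hpw : ∀ y ∈ P, ∀ a ∈ H, ∀ k : ℕ, ⁅y, a ^ k⁆ = ⁅y, a⁆ ^ k := fun y hy a ha k => by
    induction k with
    | zero => simp
    | succ k ih => rw [pow_succ, hadd y hy _ (H.pow_mem ha k) a ha, ih, pow_succ]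
  have hord : ∀ y ∈ P, y ^ p = 1 → ∀ h ∈ H, ⁅y, h⁆ ∈ Subgroup.zpowers z := by
    intro y hy hyp
    suffices key : ∀ k : ℕ, ∀ h ∈ H, ⁅y, h⁆ ^ p ^ k = 1 → ⁅y, h⁆ ^ p = 1 by
      intro h hh
      obtain ⟨k, hk⟩ := hP ⟨⁅y, h⁆, hHP (hZH (hK y hy h hh))⟩
      exact hUz _ (hK y hy h hh) (key k h hh (congrArg Subtype.val hk))
    intro k
    induction k with
    | zero => intro h hh hk; rw [pow_zero, pow_one] at hk; rw [hk, one_pow]
    | succ k ih =>
      intro h hh hk
      rcases k with _ | k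
      · simpa using hk
      refine ih h hh ?_
      -- the square case for `h ^ p ^ k`
      set a := h ^ p ^ k
      have ha : a ∈ H := H.pow_mem hh _
      set s := ⁅y, a⁆ with hsdef
      have hsk : s = ⁅y, h⁆ ^ p ^ k := hpw y hy h hh _
      have hsZ : s ∈ Z := hK y hy a ha
      have hs2 : (s ^ p) ^ p = 1 := by
        rw [hsk, ← pow_mul, ← pow_mul, show p ^ k * (p * p) = p ^ (k + 1 + 1) by ring]; exact hk
      have hspz : s ^ p ∈ Subgroup.zpowers z := hUz _ (Z.pow_mem hsZ p) hs2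
      set u := ⁅y, s⁆ with hudef
      have hup : u ^ p = 1 := by
        rw [hudef, ← hpw y hy s (hZH hsZ), commutatorElement_eq_one_iff_mul_comm]
        exact hzcen _ hspz y hy
      have huz : u ∈ Subgroup.zpowers z := hUz _ (hK y hy s (hZH hsZ)) hup
      have hcon : a * y * a⁻¹ = s⁻¹ * y := by rw [hsdef]; simp [commutatorElement_def, mul_assoc]
      have hsy : (s⁻¹ * y) ^ p = 1 := by rw [← hcon, conj_pow, hyp, mul_one, mul_inv_cancel]
      have hinv : ⁅y, s⁻¹⁆ = u⁻¹ := by
        have := hadd y hy s (hZH hsZ) s⁻¹ (H.inv_mem (hZH hsZ))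
        rw [mul_inv_cancel, commutatorElement_one_right] at this
        exact eq_inv_of_mul_eq_one_right this.symm
      let sP : P := ⟨s⁻¹, P.inv_mem (hHP (hZH hsZ))⟩
      let yP : P := ⟨y, hy⟩
      have hcen : ⁅yP, sP⁆ ∈ Subgroup.center P := Subgroup.mem_center_iff.mpr fun g => Subtype.ext (by
        show (g : Γ) * ⁅y, s⁻¹⁆ = ⁅y, s⁻¹⁆ * g
        rw [hinv]; exact hzcen _ (Subgroup.inv_mem _ huz) g g.2)
      have hexp := congrArg Subtype.val (CfsgLib.PGroup.mul_pow_central hcen p)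
      have hexp' : (s⁻¹ * y) ^ p = s⁻¹ ^ p * y ^ p * ⁅y, s⁻¹⁆ ^ p.choose 2 := hexp
      have hch : p ∣ p.choose 2 := hp.out.dvd_choose_self two_ne_zero (by omega)
      obtain ⟨j, hj⟩ := hch
      rw [hsy, hyp, hinv, hj, pow_mul, inv_pow u, hup, inv_one, one_pow, mul_one, mul_one, inv_pow] at hexp'
      have h4 : s ^ p = 1 := inv_eq_one.mp hexp'.symm
      rw [hsk, ← pow_mul] at h4
      rw [pow_succ]; exact h4
  -- the irreducible submodule for the centraliser of `Z`
  set T : Subgroup Γ := P ⊓ Subgroup.centralizer (Z : Set Γ) with hT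
  have hZT : Z ≤ T := le_inf (hZH.trans hHP) fun c hc => Subgroup.mem_centralizer_iff.mpr fun d hd =>
    hZc hc (hZH hd)
  have hHT : H ≤ T := le_inf hHP fun h hh => Subgroup.mem_centralizer_iff.mpr fun d hd => (hZc hd hh).symm
  obtain ⟨W, ⟨hW0, hWi⟩, hWmin⟩ := (Set.toFinite {W : AddSubgroup V | W ≠ ⊥ ∧ ∀ t ∈ T, ∀ w ∈ W, t • w ∈ W}).exists_minimal
    ⟨⊤, top_ne_bot, fun _ _ _ _ => AddSubgroup.mem_top _⟩
  let ρ : T →* AddMonoid.End W :=
    { toFun := fun t => AddMonoidHom.mk' (fun w => (⟨(t : Γ) • (w : V), hWi t t.2 w w.2⟩ : W))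
        fun a b => Subtype.ext (smul_add _ _ _)
      map_one' := AddMonoidHom.ext fun w => Subtype.ext (one_smul Γ (w : V))
      map_mul' := fun a b => AddMonoidHom.ext fun w => Subtype.ext (mul_smul (a : Γ) b (w : V)) }
  have hρ : ∀ (t : T) (w : W), ((ρ t w : W) : V) = (t : Γ) • (w : V) := fun _ _ => rfl
  let incl : Z →* T := Subgroup.inclusion hZT
  have hcomm : ∀ a ∈ Set.range (ρ.comp incl), ∀ t : T, ρ t * a = a * ρ t := by
    rintro _ ⟨c, rfl⟩ t
    rw [MonoidHom.comp_apply, ← map_mul, ← map_mul]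
    exact congrArg ρ (Subtype.ext (Subgroup.mem_centralizer_iff.mp t.2.2 c c.2).symm)
  set A : Subring (AddMonoid.End W) := Subring.closure (Set.range (ρ.comp incl)) with hA
  have hAcomm : ∀ a ∈ A, ∀ t : T, ρ t * a = a * ρ t := fun a ha t => by
    have h1 : A ≤ Subring.centralizer (Set.range ρ) := Subring.closure_le.mpr fun b hb => by
      rw [SetLike.mem_coe, Subring.mem_centralizer_iff]
      rintro _ ⟨t, rfl⟩
      exact hcomm b hb t
    exact Subring.mem_centralizer_iff.mp (h1 ha) _ ⟨t, rfl⟩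
  haveI hAc : IsMulCommutative A := Subring.isMulCommutative_closure (by
    rintro _ ⟨c, rfl⟩ _ ⟨d, rfl⟩
    rw [MonoidHom.comp_apply, MonoidHom.comp_apply]
    exact hcomm _ ⟨d, rfl⟩ (incl c))
  letI : CommRing A := { (inferInstance : Ring A) with mul_comm := fun a b => Std.Commutative.comm a b }
  haveI : Nontrivial W := by
    obtain ⟨w, hw, hw0⟩ := W.bot_or_exists_ne_zero.resolve_left hW0
    exact ⟨⟨⟨w, hw⟩, 0, fun e => hw0 (congrArg Subtype.val e)⟩⟩
  haveI : Nontrivial A := ⟨⟨0, 1, fun e => by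
    obtain ⟨w, hw⟩ := exists_ne (0 : W)
    exact hw (congrArg (fun f : A => (f : AddMonoid.End W) w) e).symm⟩⟩
  have hinjA : ∀ a : A, a ≠ 0 → ∀ w : W, (a : AddMonoid.End W) w = 0 → w = 0 := by
    intro a ha w hw
    let K : AddSubgroup V := (AddMonoidHom.ker (a : AddMonoid.End W)).map W.subtype
    by_contra hw0
    have hKi : ∀ t ∈ T, ∀ v ∈ K, t • v ∈ K := by
      rintro t ht _ ⟨u, hu, rfl⟩
      refine ⟨ρ ⟨t, ht⟩ u, ?_, rfl⟩
      show (a : AddMonoid.End W) (ρ ⟨t, ht⟩ u) = 0
      have h2 := congrArg (fun f : AddMonoid.End W => f u) (hAcomm a a.2 ⟨t, ht⟩)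
      exact h2.symm.trans (by
        show ρ ⟨t, ht⟩ ((a : AddMonoid.End W) u) = 0
        rw [show (a : AddMonoid.End W) u = 0 from hu, map_zero])
    have hKne : K ≠ ⊥ := fun e => by
      have : (w : V) ∈ K := ⟨w, hw, rfl⟩
      rw [e, AddSubgroup.mem_bot] at this
      exact hw0 (Subtype.ext this)
    have hle : W ≤ K := hWmin ⟨hKne, hKi⟩ (by rintro _ ⟨u, -, rfl⟩; exact u.2)
    refine ha (Subtype.ext (AddMonoidHom.ext fun u => ?_))
    obtain ⟨u', hu', e⟩ := hle u.2
    exact (Subtype.ext e : u' = u) ▸ hu'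
  haveI : NoZeroDivisors A := ⟨fun {a b} hab => or_iff_not_imp_left.mpr fun ha => Subtype.ext
    (AddMonoidHom.ext fun w => hinjA a ha _ (congrArg (fun f : A => (f : AddMonoid.End W) w) hab))⟩
  haveI : IsDomain A := NoZeroDivisors.to_isDomain A
  haveI : Finite (AddMonoid.End W) := Finite.of_injective (fun f => (f : W → W)) DFunLike.coe_injective
  haveI : Finite A := Finite.of_injective (fun a : A => (a : AddMonoid.End W)) Subtype.val_injective
  letI : Field A := (Finite.isField_of_domain A).toField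
  -- `Z` inside `A`
  let ι : Z →* A :=
    { toFun := fun c => ⟨ρ (incl c), Subring.subset_closure ⟨c, rfl⟩⟩
      map_one' := Subtype.ext ((ρ.comp incl).map_one)
      map_mul' := fun a b => Subtype.ext ((ρ.comp incl).map_mul a b) }
  have hι : ∀ (c : Z) (w : W), ((((ι c : A) : AddMonoid.End W) w : W) : V) = (c : Γ) • (w : V) := fun _ _ => rfl
  have hfpfZ : ∀ c ∈ Z, c ≠ 1 → ∀ v : V, c • v = v → v = 0 := by
    intro c hc hc1 v hv
    obtain ⟨k, hk⟩ := hP ⟨c, hHP (hZH hc)⟩
    have hk' : c ^ p ^ k = 1 := congrArg Subtype.val hk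
    have hex : ∃ k, c ^ p ^ k = 1 := ⟨k, hk'⟩
    obtain ⟨j, hj⟩ : ∃ j, Nat.find hex = j + 1 := ⟨Nat.find hex - 1, by
      have : Nat.find hex ≠ 0 := fun h0 => hc1 (by simpa [h0] using Nat.find_spec hex)
      omega⟩
    have hu1 : c ^ p ^ j ≠ 1 := Nat.find_min hex (by omega)
    have hup : (c ^ p ^ j) ^ p = 1 := by rw [← pow_mul, ← pow_succ, ← hj]; exact Nat.find_spec hex
    exact hfpfu _ (hUz _ (Z.pow_mem hc _) hup) hu1 v (MulAction.mem_stabilizer_iff.mp
      (Subgroup.pow_mem _ (show c ∈ MulAction.stabilizer Γ v from hv) _))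
  have hιinj : Function.Injective ι := by
    refine (injective_iff_map_eq_one ι).mpr fun c hc => ?_
    by_contra hc1
    obtain ⟨w, hw⟩ := exists_ne (0 : W)
    refine hw (Subtype.ext (hfpfZ c c.2 (fun e => hc1 (Subtype.ext e)) w ?_))
    rw [← hι, hc]
    rfl
  set d := Nat.card A with hd
  have hdZ : Nat.card Z + 1 ≤ d := by
    haveI := Fintype.ofFinite A
    have h1 := Nat.card_le_card_of_injective (fun c : Z => (ι c)) hιinj
    let emb : Option Z → A := fun o => o.elim 0 fun c => ι c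
    have hne : ∀ c : Z, (ι c : A) ≠ 0 := fun c e => by
      obtain ⟨w, hw⟩ := exists_ne (0 : W)
      refine hw (Subtype.ext ?_)
      have := hι c w
      rw [e] at this
      exact (smul_eq_zero_iff_eq (c : Γ)).mp this.symm
    have h2 := Nat.card_le_card_of_injective emb (by
      rintro (_ | a) (_ | b) e
      · rfl
      · exact absurd e.symm (hne b)
      · exact absurd e (hne a)
      · exact congrArg some (hιinj e))
    rwa [Finite.card_option] at h2
  set n := Module.finrank A W with hn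
  have hWcard : Nat.card W = d ^ n := Module.natCard_eq_pow_finrank
  -- independence of coset representatives
  let Zs : Subgroup H := Z.subgroupOf H
  haveI : Zs.Normal := inferInstance
  let L : H → Module.End A W := fun h =>
    { toFun := fun w => ρ ⟨h, hHT h.2⟩ w
      map_add' := fun a b => map_add _ a b
      map_smul' := fun a w => (congrArg (fun f : AddMonoid.End W => f w) (hAcomm a a.2 ⟨h, hHT h.2⟩)) }
  have hLV : ∀ (h : H) (w : W), ((L h w : W) : V) = (h : Γ) • (w : V) := fun _ _ => rfl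
  let Q := H ⧸ Zs
  haveI := Fintype.ofFinite Q
  have hindep : LinearIndependent A fun q : Q => L q.out := by
    rw [Fintype.linearIndependent_iff]
    suffices key : ∀ (s : Finset Q) (a : Q → A), ∑ q ∈ s, a q • L q.out = 0 → ∀ q ∈ s, a q = 0 from
      fun a ha q => key Finset.univ a ha q (Finset.mem_univ q)
    intro s
    induction s using Finset.induction_on with
    | empty => intro a _ q hq; exact absurd hq (Finset.notMem_empty q)
    | insert q₀ s hq₀ ih =>
      intro a ha
      rw [Finset.sum_insert hq₀] at ha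
      have hrest : ∀ q ∈ s, a q = 0 := by
        intro q hq
        by_contra haq
        let χ : H → Q → A := fun m q => ι ⟨⁅(m : Γ), (q.out : H)⁆, hK m (hHP m.2) _ q.out.2⟩
        have hχ : ∀ (m : H) (q : Q) (w : W), L q.out (L m w) = (χ m q)⁻¹ • L m (L q.out w) := by
          intro m q w
          have hu : (χ m q)⁻¹ = ι ⟨⁅(m : Γ), (q.out : H)⁆⁻¹, Z.inv_mem (hK m (hHP m.2) _ q.out.2)⟩ :=
            inv_eq_of_mul_eq_one_right (by
              rw [← map_mul]; refine (congrArg ι ?_).trans (map_one ι)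
              exact Subtype.ext (mul_inv_cancel _))
          rw [hu]
          refine Subtype.ext ?_
          show _ = ((((ι _ : A) : AddMonoid.End W) _ : W) : V)
          rw [hι, hLV, hLV, hLV, hLV]
          simp only [← mul_smul]
          congr 1
          simp [commutatorElement_def, mul_assoc]
        have hall : ∀ m : H, χ m q₀ = χ m q := fun m => by
          have h2 : ∑ r ∈ s, (a r * ((χ m r)⁻¹ - (χ m q₀)⁻¹)) • L r.out = 0 := by
            refine LinearMap.ext fun w => ?_
            have hm2 := congrArg (fun f : Module.End A W => f (L m w)) ha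
            have hm3 := congrArg (fun f : Module.End A W => (χ m q₀)⁻¹ • L m (f w)) ha
            simp only [LinearMap.add_apply, LinearMap.smul_apply, LinearMap.coe_sum, Finset.sum_apply,
              LinearMap.zero_apply, map_add, map_smul, map_sum, map_zero, smul_zero, smul_add, Finset.smul_sum,
              smul_smul, hχ] at hm2 hm3
            have hcancel : ∑ r ∈ s, (a r * ((χ m r)⁻¹ - (χ m q₀)⁻¹)) • L m (L r.out w) = 0 := by
              rw [Finset.sum_congr rfl fun r _ => by rw [mul_sub, sub_smul], Finset.sum_sub_distrib]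
              have e1 := hm2.trans hm3.symm
              rw [show (a q₀ * (χ m q₀)⁻¹) = (χ m q₀)⁻¹ * a q₀ from mul_comm _ _, add_right_inj] at e1
              rw [sub_eq_zero, e1]
              exact Finset.sum_congr rfl fun r _ => by rw [mul_comm]
            simp only [LinearMap.coe_sum, Finset.sum_apply, LinearMap.smul_apply, LinearMap.zero_apply]
            have hinjL : Function.Injective (L m) := fun u v e => Subtype.ext
              (MulAction.injective (m : Γ) (congrArg Subtype.val e))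
            refine hinjL ?_
            rw [map_sum, map_zero, ← hcancel]
            simp only [map_smul]
          have h3 := ih _ h2 q hq
          have h4 := (mul_eq_zero.mp h3).resolve_left haq
          rw [sub_eq_zero, inv_inj] at h4
          exact h4.symm
        apply hq₀
        have hmem : (q₀.out : H)⁻¹ * q.out ∈ Zs := by
          refine ⟨((q₀.out : H)⁻¹ * q.out).2, Subgroup.mem_centralizer_iff.mpr fun m hm => ?_⟩
          have e := congrArg Subtype.val (hιinj (hall ⟨m, hm⟩))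
          have e' : ⁅m, ((q₀.out : H) : Γ)⁆ = ⁅m, ((q.out : H) : Γ)⁆ := e
          set g0 : Γ := ((q₀.out : H) : Γ) with hg0
          set g1 : Γ := ((q.out : H) : Γ) with hg1
          have hd0 : ⁅m, g0⁆ ∈ Z := hK m (hHP hm) g0 q₀.out.2
          show m * (g0⁻¹ * g1) = g0⁻¹ * g1 * m
          have a0 : m * g0⁻¹ = g0⁻¹ * ⁅m, g0⁆⁻¹ * m := by simp [commutatorElement_def, mul_assoc]
          have a1 : m * g1 = ⁅m, g1⁆ * g1 * m := by simp [commutatorElement_def, mul_assoc]
          calc m * (g0⁻¹ * g1) = g0⁻¹ * ⁅m, g0⁆⁻¹ * (m * g1) := by rw [← mul_assoc, a0, mul_assoc]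
            _ = g0⁻¹ * g1 * m := by rw [a1, ← e']; group
        have : q₀ = q := by
          rw [← QuotientGroup.out_eq' q₀, ← QuotientGroup.out_eq' q]
          exact QuotientGroup.eq.mpr hmem
        exact this ▸ hq
      intro q hq
      rcases Finset.mem_insert.mp hq with rfl | hq
      · rw [Finset.sum_eq_zero (fun r hr => by rw [hrest r hr, zero_smul]), add_zero] at ha
        by_contra h0
        obtain ⟨w, hw⟩ := exists_ne (0 : W)
        have h5 := (smul_eq_zero.mp (congrArg (fun f : Module.End A W => f w) ha)).resolve_left h0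
        exact hw (Subtype.ext ((smul_eq_zero_iff_eq _).mp (congrArg Subtype.val h5)))
      · exact hrest q hq
  have hQn : Zs.index ≤ n * n := by
    have h1 := hindep.fintype_card_le_finrank
    have h2 : Module.finrank A (Module.End A W) = n * n := Module.finrank_linearMap A A W W
    rw [h2] at h1
    rw [Subgroup.index_eq_card, Nat.card_eq_fintype_card]
    exact h1
  -- counting elements of order `p`
  haveI := Fintype.ofFinite Γ
  set S : Finset Γ := Finset.univ.filter fun y => y ∈ P ∧ y ^ p = 1 with hS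
  let ψ : {y // y ∈ S} → (H →* A) := fun y =>
    { toFun := fun h => ι ⟨⁅(y : Γ), (h : Γ)⁆, hK y (Finset.mem_filter.mp y.2).2.1 h h.2⟩
      map_one' := (congrArg ι (Subtype.ext (commutatorElement_one_right (y : Γ)))).trans ι.map_one
      map_mul' := fun a b => (congrArg ι (Subtype.ext (hadd y (Finset.mem_filter.mp y.2).2.1 a a.2 b b.2))).trans
        (ι.map_mul ⟨⁅(y : Γ), (a : Γ)⁆, hK y (Finset.mem_filter.mp y.2).2.1 a a.2⟩
          ⟨⁅(y : Γ), (b : Γ)⁆, hK y (Finset.mem_filter.mp y.2).2.1 b b.2⟩) }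
  let φ : {y // y ∈ S} → (H →* Aˣ) := fun y => (ψ y).toHomUnits
  have hval : ∀ (y : {y // y ∈ S}) (h : H),
      ((φ y h : Aˣ) : A) = ι ⟨⁅(y : Γ), (h : Γ)⁆, hK y (Finset.mem_filter.mp y.2).2.1 h h.2⟩ := fun _ _ => rfl
  haveI : Finite (H →* Aˣ) := Finite.of_injective (fun φ => (φ : H → Aˣ)) DFunLike.coe_injective
  haveI := Fintype.ofFinite (H →* Aˣ)
  set Img := (Finset.univ : Finset {y // y ∈ S}).image φ with hImg
  set pw : ℕ := if Nat.card Z = p then 1 else p with hpwdef
  have hImgc : Img.card ≤ pw * Zs.index := by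
    let res : (H →* Aˣ) → (Z →* Aˣ) := fun f => f.comp (Subgroup.inclusion hZH)
    haveI : Finite (Z →* Aˣ) := Finite.of_injective (fun φ => (φ : Z → Aˣ)) DFunLike.coe_injective
    haveI := Fintype.ofFinite (Z →* Aˣ)
    have hfib : ∀ f₀ ∈ Img.image res, (Img.filter fun f => res f = f₀).card ≤ Zs.index := by
      intro f₀ hf₀
      obtain ⟨g₀, hg₀, rfl⟩ := Finset.mem_image.mp hf₀
      refine le_trans ?_ (hom_count (A := A) Zs)
      rw [Nat.card_eq_fintype_card, ← Finset.card_univ]
      refine Finset.card_le_card_of_injOn (fun f => if hf : ∀ k ∈ Zs, (f / g₀) k = 1 then ⟨f / g₀, hf⟩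
        else ⟨1, fun _ _ => rfl⟩) (fun f _ => Finset.mem_univ _) fun f hf f' hf' e => ?_
      have hk : ∀ f ∈ Img.filter (fun f => res f = res g₀), ∀ k ∈ Zs, (f / g₀) k = 1 := fun f hf k hk => by
        have h1 := DFunLike.congr_fun (Finset.mem_filter.mp hf).2 ⟨(k : Γ), hk⟩
        rw [MonoidHom.div_apply, div_eq_one]
        exact h1
      simp only [dif_pos (hk f hf), dif_pos (hk f' hf'), Subtype.mk.injEq] at e
      refine MonoidHom.ext fun h => ?_
      have e' := DFunLike.congr_fun e h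
      rw [MonoidHom.div_apply, MonoidHom.div_apply] at e'
      exact div_left_injective e'
    refine (Finset.card_le_mul_card_image Img _ hfib).trans ?_
    rw [mul_comm pw]
    refine Nat.mul_le_mul_left _ ?_
    -- restrictions to `Z`
    by_cases hZp : Nat.card Z = p
    · rw [hpwdef, if_pos hZp]
      refine Finset.card_le_one.mpr fun f hf g hg => ?_
      suffices key : ∀ f ∈ Img.image res, f = 1 by rw [key f hf, key g hg]
      intro f hf
      obtain ⟨_, hy, rfl⟩ := Finset.mem_image.mp hf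
      obtain ⟨y, -, rfl⟩ := Finset.mem_image.mp hy
      refine MonoidHom.ext fun c => Units.ext ?_
      have hcz : (c : Γ) ∈ Subgroup.zpowers z := hUz _ c.2 (by
        have := pow_card_eq_one' (G := Z) (x := c); rw [hZp] at this; exact congrArg Subtype.val this)
      show ((φ y (Subgroup.inclusion hZH c) : Aˣ) : A) = 1
      rw [hval, ← ι.map_one]
      refine congrArg ι (Subtype.ext ?_)
      exact commutatorElement_eq_one_iff_mul_comm.mpr (hzcen _ hcz _ (Finset.mem_filter.mp y.2).2.1)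
    · rw [hpwdef, if_neg hZp]
      haveI hZcomm : IsMulCommutative Z := ⟨⟨fun a b => Subtype.ext (hZc b.2 (hZH a.2))⟩⟩
      let pmap : Z →* Z := MonoidHom.mk' (fun c => c ^ p) fun a b =>
        (show Commute a b from Std.Commutative.comm a b).mul_pow p
      haveI : pmap.range.Normal := ⟨fun a ha b => by
        rwa [show b * a * b⁻¹ = a by rw [hZcomm.is_comm.comm b a, mul_inv_cancel_right]]⟩
      have hidx : pmap.range.index ≤ p := by
        have h1 := Subgroup.card_mul_index pmap.range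
        have h2 := Subgroup.card_mul_index pmap.ker
        rw [Subgroup.index_ker] at h2
        have h3 : Nat.card pmap.ker ≤ p := by
          rw [← hzo', ← Nat.card_zpowers]
          exact Nat.card_le_card_of_injective (fun c : pmap.ker => (⟨((c : Z) : Γ), hUz _ (c : Z).2
            (congrArg Subtype.val (c.2 : pmap c = 1))⟩ : Subgroup.zpowers z))
            fun a b e => Subtype.ext (Subtype.ext (congrArg Subtype.val e :))
        have h4 : Nat.card pmap.range * pmap.range.index = Nat.card pmap.range * Nat.card pmap.ker := by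
          rw [h1, mul_comm, h2]
        exact (Nat.eq_of_mul_eq_mul_left Nat.card_pos h4).le.trans h3
      refine le_trans ?_ ((hom_count (A := A) pmap.range).trans hidx)
      rw [Nat.card_eq_fintype_card, ← Finset.card_univ]
      refine Finset.card_le_card_of_injOn (fun f => if hf : ∀ k ∈ pmap.range, f k = 1 then ⟨f, hf⟩
        else ⟨1, fun _ _ => rfl⟩) (fun f _ => Finset.mem_univ _) fun f hf f' hf' e => ?_
      have hk : ∀ f ∈ Img.image res, ∀ k ∈ pmap.range, f k = 1 := by
        intro f hf k hk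
        obtain ⟨_, hy, rfl⟩ := Finset.mem_image.mp hf
        obtain ⟨y, -, rfl⟩ := Finset.mem_image.mp hy
        obtain ⟨c, rfl⟩ := hk
        have hyP := (Finset.mem_filter.mp y.2).2
        refine Units.ext ?_
        show ((φ y (Subgroup.inclusion hZH (pmap c)) : Aˣ) : A) = 1
        rw [hval, ← ι.map_one]
        refine congrArg ι (Subtype.ext ?_)
        show ⁅(y : Γ), ((c : Γ) ^ p)⁆ = 1
        rw [hpw y hyP.1 c (hZH c.2)]
        obtain ⟨i, hi⟩ := Subgroup.mem_zpowers_iff.mp (hord y hyP.1 hyP.2 c (hZH c.2))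
        rw [← hi, ← zpow_natCast, zpow_comm, zpow_natCast, hzp, one_zpow]
      simp only [dif_pos (hk f hf), dif_pos (hk f' hf'), Subtype.mk.injEq] at e
      exact e
  have hScard : S.card ≤ p * Img.card := by
    rw [← Finset.card_attach (s := S), show S.attach = (Finset.univ : Finset {y // y ∈ S}) from rfl]
    refine Finset.card_le_mul_card_image _ p fun f hf => ?_
    obtain ⟨y₀, -, rfl⟩ := Finset.mem_image.mp hf
    obtain ⟨hy₀, hy₀p⟩ := (Finset.mem_filter.mp y₀.2).2
    rw [← hzo', ← Nat.card_zpowers, Nat.card_eq_fintype_card, ← Finset.card_univ]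
    have hmem : ∀ y : {y // y ∈ S}, φ y = φ y₀ → (y₀ : Γ)⁻¹ * y ∈ Subgroup.zpowers z := by
      intro y hy
      obtain ⟨hyP, hyp⟩ := (Finset.mem_filter.mp y.2).2
      set c := (y₀ : Γ)⁻¹ * y with hc
      have hcP : c ∈ P := P.mul_mem (P.inv_mem hy₀) hyP
      have hcC : c ∈ Z := hC c hcP fun h hh => by
        have e := congrArg (fun f : H →* Aˣ => ((f ⟨h, hh⟩ : Aˣ) : A)) hy
        have e2 := hιinj ((hval y ⟨h, hh⟩).symm.trans (e.trans (hval y₀ ⟨h, hh⟩)))
        have e' : ⁅(y : Γ), h⁆ = ⁅(y₀ : Γ), h⁆ := congrArg Subtype.val e2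
        have hd0 := hord _ hy₀ hy₀p h hh
        have a1 : (y : Γ) * h = ⁅(y₀ : Γ), h⁆ * h * y := by rw [← e']; simp [commutatorElement_def, mul_assoc]
        have a0 : (y₀ : Γ) * h = ⁅(y₀ : Γ), h⁆ * h * y₀ := by simp [commutatorElement_def, mul_assoc]
        apply mul_left_cancel (a := (y₀ : Γ))
        rw [← mul_assoc, a0, hc]
        simp only [mul_assoc, mul_inv_cancel_left]
        rw [a1, mul_assoc]
      refine hUz c hcC ?_
      have hcH := hZH hcC
      have hyeq : (y : Γ) = y₀ * c := by rw [hc, mul_inv_cancel_left]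
      have hu := hord _ hy₀ hy₀p c hcH
      let yP : P := ⟨y₀, hy₀⟩
      let cP : P := ⟨c, hcP⟩
      have hcen : ⁅cP, yP⁆ ∈ Subgroup.center P := Subgroup.mem_center_iff.mpr fun g => Subtype.ext (by
        show (g : Γ) * ⁅c, (y₀ : Γ)⁆ = ⁅c, (y₀ : Γ)⁆ * g
        rw [← commutatorElement_inv]; exact hzcen _ (Subgroup.inv_mem _ hu) g g.2)
      have hexp : ((y₀ : Γ) * c) ^ p = (y₀ : Γ) ^ p * c ^ p * ⁅c, (y₀ : Γ)⁆ ^ p.choose 2 :=
        congrArg Subtype.val (CfsgLib.PGroup.mul_pow_central hcen p)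
      obtain ⟨j, hj⟩ : p ∣ p.choose 2 := hp.out.dvd_choose_self two_ne_zero (by omega)
      obtain ⟨i, hi⟩ := Subgroup.mem_zpowers_iff.mp hu
      rw [← hyeq, hyp, hy₀p, one_mul, ← commutatorElement_inv, ← hi, hj, pow_mul, inv_pow,
        show (z ^ i) ^ p = 1 by rw [← zpow_natCast, zpow_comm, zpow_natCast, hzp, one_zpow],
        inv_one, one_pow, mul_one] at hexp
      exact hexp.symm
    refine Finset.card_le_card_of_injOn (fun y => if hy : (y₀ : Γ)⁻¹ * y ∈ Subgroup.zpowers z then
      (⟨_, hy⟩ : Subgroup.zpowers z) else 1) (fun y _ => Finset.mem_univ _) fun a ha b hb e => ?_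
    simp only [dif_pos (hmem a (Finset.mem_filter.mp ha).2), dif_pos (hmem b (Finset.mem_filter.mp hb).2),
      Subtype.mk.injEq, mul_right_inj] at e
    exact Subtype.ext e
  set X : Finset Γ := S.filter fun y => y ∉ Subgroup.zpowers z with hX
  have hXc : X.card ≤ p * (pw * Zs.index - 1) := by
    have h1 : (S.filter fun y => y ∈ Subgroup.zpowers z).card = p := by
      rw [show (S.filter fun y => y ∈ Subgroup.zpowers z) = Finset.univ.filter fun y => y ∈ Subgroup.zpowers z by
        ext y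
        simp only [hS, Finset.mem_filter, Finset.mem_univ, true_and]
        refine ⟨fun h => h.2, fun h => ⟨⟨(Subgroup.zpowers_le.mpr z'.2) h, ?_⟩, h⟩⟩
        obtain ⟨i, rfl⟩ := Subgroup.mem_zpowers_iff.mp h
        rw [← zpow_natCast, zpow_comm, zpow_natCast, hzp, one_zpow],
        ← Fintype.card_subtype, ← Nat.card_eq_fintype_card, Nat.card_zpowers, hzo']
    have h2 := Finset.card_filter_add_card_filter_not (s := S) (fun y => y ∈ Subgroup.zpowers z)
    have h3 := hScard.trans (Nat.mul_le_mul_left p hImgc)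
    rw [h1, ← hX] at h2
    rw [Nat.mul_sub, mul_one]
    omega
  by_contra hcon
  push Not at hcon
  -- counting incidences
  haveI := Fintype.ofFinite V
  set F : Γ → Finset V := fun y => Finset.univ.filter fun v => v ≠ 0 ∧ y • v = v with hF
  have hXne : X.Nonempty := ⟨x, Finset.mem_filter.mpr ⟨Finset.mem_filter.mpr ⟨Finset.mem_univ _, hx, hxp⟩, hxz⟩⟩
  obtain ⟨y₁, hy₁, hmax⟩ := Finset.exists_max_image X (fun y => (F y).card) hXne
  have hFc : ∀ y, (F y).card = Nat.card {v : V // y • v = v} - 1 := fun y => by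
    rw [Nat.card_eq_fintype_card, Fintype.card_subtype, ← Finset.card_erase_of_mem (a := (0 : V))
      (by simp)]
    congr 1; ext v; simp [hF]
  have hmult : ∀ v : V, v ≠ 0 → p - 1 ≤ (X.filter fun y => y • v = v).card := by
    intro v hv
    obtain ⟨g, hg⟩ := hcon v
    set y := g * x * g⁻¹ with hy
    have hyP : y ∈ P := hPn.conj_mem x hx g
    have hyp : y ^ p = 1 := by rw [hy, conj_pow, hxp, mul_one, mul_inv_cancel]
    have hyz : y ∉ Subgroup.zpowers z := fun h => by
      obtain ⟨i, hi⟩ := Subgroup.mem_zpowers_iff.mp h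
      apply hxz
      have e : x = g⁻¹ * z ^ i * g⁻¹⁻¹ := by rw [hi, hy]; group
      rw [e, ← conj_zpow]
      exact Subgroup.zpow_mem _ (hzn g⁻¹) i
    have hy1 : y ≠ 1 := fun e => hyz (e ▸ Subgroup.one_mem _)
    have hyo := orderOf_eq_prime hyp hy1
    calc p - 1 = (Finset.Ico 1 p).card := (Nat.card_Ico 1 p).symm
      _ ≤ _ := by
        refine Finset.card_le_card_of_injOn (fun i => y ^ i) (fun i hi => ?_) fun i hi j hj e => ?_
        · obtain ⟨hi1, hi2⟩ := Finset.mem_Ico.mp hi
          refine Finset.mem_filter.mpr ⟨Finset.mem_filter.mpr ⟨Finset.mem_filter.mpr ⟨Finset.mem_univ _, P.pow_mem hyP i,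
            by rw [← pow_mul, mul_comm, pow_mul, hyp, one_pow]⟩, fun h => hyz ?_⟩,
            MulAction.mem_stabilizer_iff.mp (Subgroup.pow_mem _ (show y ∈ MulAction.stabilizer Γ v from hg) i)⟩
          obtain ⟨m, hm⟩ := exists_pow_eq_self_of_coprime (n := i) (x := y)
            (by rw [hyo]; exact Nat.coprime_comm.mp ((Nat.Prime.coprime_iff_not_dvd hp.out).mpr
              (Nat.not_dvd_of_pos_of_lt hi1 hi2)))
          exact hm ▸ Subgroup.pow_mem _ h m
        · exact pow_injOn_Iio_orderOf (hyo.symm ▸ (Finset.mem_Ico.mp hi).2) (hyo.symm ▸ (Finset.mem_Ico.mp hj).2) e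
  set c := Nat.card {v : V // y₁ • v = v} with hc
  have hcount : (p - 1) * (Nat.card V - 1) ≤ X.card * (c - 1) := by
    calc (p - 1) * (Nat.card V - 1) = ∑ v ∈ (Finset.univ : Finset V).erase 0, (p - 1) := by
          rw [Finset.sum_const, smul_eq_mul, Finset.card_erase_of_mem (Finset.mem_univ _), Finset.card_univ,
            Nat.card_eq_fintype_card, mul_comm]
      _ ≤ ∑ v ∈ (Finset.univ : Finset V).erase 0, (X.filter fun y => y • v = v).card :=
          Finset.sum_le_sum fun v hv => hmult v (Finset.ne_of_mem_erase hv)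
      _ = ∑ y ∈ X, (F y).card := by
          refine (Finset.sum_card_bipartiteAbove_eq_sum_card_bipartiteBelow (fun (y : Γ) (v : V) => y • v = v)
            (s := X) (t := (Finset.univ : Finset V).erase 0)).symm.trans ?_
          refine Finset.sum_congr rfl fun y _ => congrArg Finset.card ?_
          ext v; simp [hF, Finset.bipartiteAbove]
      _ ≤ X.card * (c - 1) := by
          rw [← smul_eq_mul]; exact Finset.sum_le_card_nsmul X _ _ fun y hy => (hmax y hy).trans_eq (hFc y₁)
  have hcp : c ^ p ≤ Nat.card V := by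
    obtain ⟨hS1, hnz⟩ := Finset.mem_filter.mp hy₁
    obtain ⟨-, hyP, hyp⟩ := Finset.mem_filter.mp hS1
    obtain ⟨m, hm, hne⟩ : ∃ m ∈ H, ⁅y₁, m⁆ ≠ 1 := by
      by_contra hh
      push Not at hh
      exact hnz (hUz _ (hC y₁ hyP fun h hh' => (commutatorElement_eq_one_iff_mul_comm.mp (hh h hh')).symm) hyp)
    set t := ⁅y₁, m⁆ with ht
    have htz := hord y₁ hyP hyp m hm
    refine card_fix_pow hV hyp (ζ := t⁻¹) ?_ (hzcen _ (Subgroup.inv_mem _ htz) _ hyP)
      (hzcen _ (Subgroup.inv_mem _ htz) _ (hHP hm)) (hfpfu _ (Subgroup.inv_mem _ htz) (inv_ne_one.mpr hne)) (m := m) ?_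
    · obtain ⟨i, hi⟩ := Subgroup.mem_zpowers_iff.mp htz
      rw [ht, ← hi, inv_pow, ← zpow_natCast, zpow_comm, zpow_natCast, hzp, one_zpow, inv_one]
    · rw [hzcen _ (Subgroup.inv_mem _ htz) _ hyP]
      simp [commutatorElement_def, mul_assoc]
  have hVd : d ^ n ≤ Nat.card V := hWcard ▸ Nat.card_le_card_of_injective _ Subtype.val_injective
  have hpZ : p ∣ Nat.card Z := hzo' ▸ Subgroup.orderOf_dvd_natCard _ hzZ
  have hpZ' : p ≤ Nat.card Z := Nat.le_of_dvd Nat.card_pos hpZ
  refine count_contradiction (L := pw * Zs.index) (n := n) hp3 (le_trans (by omega) hdZ) hVd ?_ hXc rfl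
    Finite.one_lt_card hcp hcount
  by_cases hZp : Nat.card Z = p
  · exact Or.inl (by rw [hpwdef, if_pos hZp, one_mul]; exact hQn)
  · refine Or.inr ⟨by rw [hpwdef, if_neg hZp]; exact Nat.mul_le_mul_left _ hQn, le_trans ?_ hdZ⟩
    obtain ⟨k, hk⟩ := IsPGroup.iff_card.mp (hP.to_le (hZH.trans hHP))
    rw [hk] at hZp hpZ' ⊢
    rcases k with _ | _ | k
    · simp at hpZ'; omega
    · simp at hZp
    · exact Nat.succ_le_succ (Nat.pow_le_pow_right (by omega) (by omega))

end CfsgLib.OddRegular
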