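import Cfsg.Agent.PGroup.Basic

/-!
Gluck's lemma for groups of odd prime power order: there are two inequivalent regular subsets.
-/

set_option autoImplicit false

namespace CfsgLib.OddRegular

variable {P : Type*} [Group P] [Finite P] {Ω : Type*} [MulAction P Ω] {p : ℕ} [hp : Fact p.Prime]

/-- `g` maps the subset `D` of `s` onto `D'`. -/
def Maps (s : Set Ω) (D D' : Set Ω) (g : P) : Prop := ∀ a ∈ s, (g • a ∈ D' ↔ a ∈ D)

theorem two_regular (hP : IsPGroup p P) (hp2 : p ≠ 2) : ∀ (n : ℕ) (M : Subgroup P) (s : Set Ω), s.Finite → s.ncard = n →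
    s.Nonempty → (∀ g ∈ M, ∀ a ∈ s, g • a ∈ s) → ∃ D D' : Set Ω,
      (∀ g ∈ M, Maps s D D g → ∀ a ∈ s, g • a = a) ∧ (∀ g ∈ M, Maps s D' D' g → ∀ a ∈ s, g • a = a) ∧
      (∀ g ∈ M, ¬ Maps s D D' g) := by
  intro n
  induction n using Nat.strong_induction_on with
  | _ n ih =>
  intro M s hfin hn ⟨a, ha⟩ hinv
  classical
  by_cases hone : ∀ b ∈ s, b = a
  · refine ⟨∅, {a}, fun g hg _ b hb => ?_, fun g hg _ b hb => ?_, fun g hg h => ?_⟩
    · rw [hone _ (hinv g hg b hb), hone b hb]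
    · rw [hone _ (hinv g hg b hb), hone b hb]
    · exact ((h a ha).mp (hone _ (hinv g hg a ha))).elim
  push Not at hone
  by_cases htrans : ∀ b ∈ s, ∃ g ∈ M, g • a = b
  swap
  · -- split off one orbit
    push Not at htrans
    obtain ⟨b, hb, hbo⟩ := htrans
    set o : Set Ω := {c | ∃ g ∈ M, g • a = c} with ho
    have hos : o ⊆ s := by rintro c ⟨g, hg, rfl⟩; exact hinv g hg a ha
    have hoinv : ∀ g ∈ M, ∀ c ∈ o, g • c ∈ o := by
      rintro g hg c ⟨h, hh, rfl⟩; exact ⟨g * h, M.mul_mem hg hh, mul_smul g h a⟩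
    have hrinv : ∀ g ∈ M, ∀ c ∈ s \ o, g • c ∈ s \ o := fun g hg c hc =>
      ⟨hinv g hg c hc.1, fun hco => hc.2 (by simpa using hoinv g⁻¹ (M.inv_mem hg) _ hco)⟩
    have hao : a ∈ o := ⟨1, M.one_mem, one_smul P a⟩
    have hbr : b ∈ s \ o := ⟨hb, by rintro ⟨g, hg, hgb⟩; exact hbo g hg hgb⟩
    obtain ⟨D₁, D₁', h1, h1', h1n⟩ := ih o.ncard (hn ▸ Set.ncard_lt_ncard
      (Set.ssubset_iff_subset_ne.mpr ⟨hos, fun e => hbr.2 (e ▸ hb)⟩) hfin) M o (hfin.subset hos) rfl ⟨a, hao⟩ hoinv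
    obtain ⟨D₂, -, h2, -, -⟩ := ih (s \ o).ncard (hn ▸ Set.ncard_lt_ncard
      (Set.ssubset_iff_subset_ne.mpr ⟨Set.diff_subset, fun e => (e.symm ▸ ha : a ∈ s \ o).2 hao⟩) hfin) M (s \ o)
      hfin.diff rfl ⟨b, hbr⟩ hrinv
    have res : ∀ (A A' : Set Ω) (g : P), g ∈ M → Maps s (A ∩ o ∪ D₂ ∩ (s \ o)) (A' ∩ o ∪ D₂ ∩ (s \ o)) g →
        Maps o A A' g ∧ Maps (s \ o) D₂ D₂ g := fun A A' g hg h => by
      refine ⟨fun c hc => ?_, fun c hc => ?_⟩
      · have := h c (hos hc)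
        have h3 := hoinv g hg c hc
        simp only [Set.mem_union, Set.mem_inter_iff, Set.mem_sdiff] at this
        tauto
      · have := h c hc.1
        have h3 := hrinv g hg c hc
        simp only [Set.mem_union, Set.mem_inter_iff, Set.mem_sdiff] at this h3 hc
        tauto
    refine ⟨D₁ ∩ o ∪ D₂ ∩ (s \ o), D₁' ∩ o ∪ D₂ ∩ (s \ o), fun g hg h c hc => ?_, fun g hg h c hc => ?_,
      fun g hg h => h1n g hg (res _ _ g hg h).1⟩
    · obtain ⟨hA, hB⟩ := res _ _ g hg h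
      by_cases hco : c ∈ o
      · exact h1 g hg hA c hco
      · exact h2 g hg hB c ⟨hc, hco⟩
    · obtain ⟨hA, hB⟩ := res _ _ g hg h
      by_cases hco : c ∈ o
      · exact h1' g hg hA c hco
      · exact h2 g hg hB c ⟨hc, hco⟩
  · -- the transitive case
    set St : Subgroup M := MulAction.stabilizer M a with hSt
    have hStne : St ≠ ⊤ := by
      intro e
      obtain ⟨b, hb, hne⟩ := hone
      obtain ⟨g, hg, hgb⟩ := htrans b hb
      exact hne (hgb ▸ (show (⟨g, hg⟩ : M) ∈ St from e ▸ Subgroup.mem_top _))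
    obtain ⟨N, hN, hStN⟩ := (eq_top_or_exists_le_coatom St).resolve_left hStne
    obtain ⟨hNn, hNi⟩ := CfsgLib.PGroup.index_coatom (hP.to_subgroup M) hN
    haveI := hNn
    have hφ : ∀ g h : M, g • a = h • a → (QuotientGroup.mk' N g) = QuotientGroup.mk' N h := fun g h e => by
      refine (QuotientGroup.eq).mpr (hStN ?_)
      rw [hSt, MulAction.mem_stabilizer_iff, mul_smul, ← e, inv_smul_smul]
    set B : Set Ω := {c | ∃ g : M, g ∈ N ∧ g • a = c} with hB
    have hBs : B ⊆ s := by rintro c ⟨g, -, rfl⟩; exact hinv g g.2 a ha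
    obtain ⟨t, htN⟩ : ∃ t : M, t ∉ N := by
      by_contra hc; push Not at hc
      exact hN.1 ((Subgroup.eq_top_iff' N).mpr hc)
    have hBne : B ≠ s := fun e => by
      have : t • a ∈ B := e ▸ hinv t t.2 a ha
      obtain ⟨g, hg, hga⟩ := this
      have := hφ g t hga
      rw [QuotientGroup.mk'_apply, QuotientGroup.mk'_apply, (QuotientGroup.eq_one_iff g).mpr hg, eq_comm] at this
      exact htN ((QuotientGroup.eq_one_iff t).mp this)
    have hBinv : ∀ g ∈ N.map M.subtype, ∀ c ∈ B, g • c ∈ B := by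
      rintro _ ⟨g, hg, rfl⟩ c ⟨h, hh, rfl⟩
      exact ⟨g * h, N.mul_mem hg hh, mul_smul g h a⟩
    obtain ⟨D₀, D₁, h0, h1, h01⟩ := ih B.ncard (hn ▸ Set.ncard_lt_ncard
      (Set.ssubset_iff_subset_ne.mpr ⟨hBs, hBne⟩) hfin) (N.map M.subtype) B (hfin.subset hBs) rfl
      ⟨a, 1, N.one_mem, one_smul M a⟩ hBinv
    -- a block for each coset of `N`, with a representative carrying it to `B`
    let Q := M ⧸ N
    let r : Q → M := fun i => if i = 1 then 1 else i.out
    have hr : ∀ i : Q, QuotientGroup.mk' N (r i) = i := fun i => by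
      by_cases hi : i = 1
      · simp only [r, if_pos hi, map_one]; exact hi.symm
      · simp only [r, if_neg hi]; exact QuotientGroup.out_eq' i
    have hblk : ∀ b ∈ s, ∃! i : Q, (r i)⁻¹ • b ∈ B := fun b hb => by
      obtain ⟨g, hg, rfl⟩ := htrans b hb
      refine ⟨QuotientGroup.mk' N ⟨g, hg⟩, ⟨(r _)⁻¹ * ⟨g, hg⟩, (QuotientGroup.eq_one_iff _).mp ?_, mul_smul _ _ a⟩,
        fun i ⟨h, hh, hha⟩ => ?_⟩
      · show QuotientGroup.mk' N _ = 1
        rw [map_mul, map_inv, hr, inv_mul_cancel]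
      · have : (r i * h) • a = (⟨g, hg⟩ : M) • a := by rw [mul_smul, hha, smul_inv_smul]; rfl
        have h2 := hφ _ _ this
        rw [map_mul, hr, QuotientGroup.mk'_apply N h, (QuotientGroup.eq_one_iff h).mpr hh, mul_one] at h2
        exact h2
    choose! blk hblk1 hblk2 using hblk
    have hin : ∀ (i : Q) (c : Ω), c ∈ B → r i • c ∈ s ∧ blk (r i • c) = i := fun i c hc =>
      ⟨hinv _ (r i).2 c (hBs hc), ((hblk2 _ (hinv _ (r i).2 c (hBs hc))) i
        (show (r i)⁻¹ • (r i • c) ∈ B by rw [inv_smul_smul]; exact hc)).symm⟩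
    let mk : Set Ω → Set Ω → Set Ω := fun X Y => {b | (r (blk b))⁻¹ • b ∈ if blk b = 1 then X else Y}
    have hmk : ∀ X Y i c, c ∈ B → (r i • c ∈ mk X Y ↔ c ∈ if i = 1 then X else Y) := fun X Y i c hc => by
      simp only [mk, Set.mem_setOf_eq, (hin i c hc).2, inv_smul_smul]
    -- the induced map between two blocks
    have hmove : ∀ (g : M) (X Y X' Y' : Set Ω), Maps s (mk X Y) (mk X' Y') (g : P) → ∀ i : Q,
        ((r (QuotientGroup.mk' N g * i))⁻¹ * g * r i) ∈ N ∧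
        Maps B (if i = 1 then X else Y) (if QuotientGroup.mk' N g * i = 1 then X' else Y')
          ((((r (QuotientGroup.mk' N g * i))⁻¹ * g * r i : M) : P)) := fun g X Y X' Y' h i => by
      set j := QuotientGroup.mk' N g * i with hj
      have hm : ((r j)⁻¹ * g * r i) ∈ N := by
        refine (QuotientGroup.eq_one_iff _).mp ?_
        show QuotientGroup.mk' N _ = 1
        rw [map_mul, map_mul, map_inv, hr, hr, hj]; group
      refine ⟨hm, fun c hc => ?_⟩
      have h2 := h (r i • c) (hin i c hc).1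
      have h3 : ((((r j)⁻¹ * g * r i : M) : P)) • c ∈ B := hBinv _ ⟨_, hm, rfl⟩ c hc
      rw [hmk X Y i c hc] at h2
      rw [← h2, ← hmk X' Y' j _ h3]
      have e : r j • ((((r j)⁻¹ * g * r i : M) : P)) • c = (g : P) • r i • c := by
        show (r j : P) • _ = (g : P) • (r i : P) • c
        rw [← mul_smul, ← mul_smul]; congr 1; simp [mul_assoc]
      rw [e]
    have hQ : Nat.card Q = p := by rw [← hNi]; rfl
    have hfix : ∀ (g : M) (X Y : Set Ω), QuotientGroup.mk' N g = 1 →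
        (∀ m ∈ N.map M.subtype, Maps B X X m → ∀ c ∈ B, m • c = c) →
        (∀ m ∈ N.map M.subtype, Maps B Y Y m → ∀ c ∈ B, m • c = c) →
        Maps s (mk X Y) (mk X Y) (g : P) → ∀ b ∈ s, (g : P) • b = b := fun g X Y hg hX hY h b hb => by
      obtain ⟨hm, hmaps⟩ := hmove g X Y X Y h (blk b)
      rw [hg, one_mul] at hm hmaps
      have hc := hblk1 b hb
      have e : (((r (blk b))⁻¹ * g * r (blk b) : M) : P) • ((r (blk b))⁻¹ • b) = (r (blk b))⁻¹ • b := by
        by_cases hi : blk b = 1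
        · rw [if_pos hi] at hmaps; exact hX _ ⟨_, hm, rfl⟩ hmaps _ hc
        · rw [if_neg hi] at hmaps; exact hY _ ⟨_, hm, rfl⟩ hmaps _ hc
      have e2 : ((r (blk b) : M) : P) • (((r (blk b))⁻¹ * g * r (blk b) : M) : P) • ((r (blk b))⁻¹ • b) = b := by
        rw [e]; exact smul_inv_smul (r (blk b)) b
      rw [show (r (blk b))⁻¹ • b = ((r (blk b) : M) : P)⁻¹ • b from rfl, ← mul_smul, ← mul_smul] at e2
      rw [show (g : P) = (r (blk b) : P) * (((r (blk b))⁻¹ * g * r (blk b) : M) : P) * (r (blk b) : P)⁻¹ by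
        simp [mul_assoc]]
      exact e2
    refine ⟨mk D₀ D₁, mk D₁ D₀, fun g hg h => ?_, fun g hg h => ?_, fun g hg h => ?_⟩
    · by_cases hk : QuotientGroup.mk' N ⟨g, hg⟩ = 1
      · exact hfix ⟨g, hg⟩ D₀ D₁ hk h0 h1 h
      · obtain ⟨hm, hmaps⟩ := hmove ⟨g, hg⟩ D₀ D₁ D₀ D₁ h 1
        rw [if_pos rfl, mul_one, if_neg hk] at hmaps
        rw [mul_one] at hm
        exact (h01 _ ⟨_, hm, rfl⟩ hmaps).elim
    · by_cases hk : QuotientGroup.mk' N ⟨g, hg⟩ = 1
      · exact hfix ⟨g, hg⟩ D₁ D₀ hk h1 h0 h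
      · obtain ⟨hm, hmaps⟩ := hmove ⟨g, hg⟩ D₁ D₀ D₁ D₀ h (QuotientGroup.mk' N ⟨g, hg⟩)⁻¹
        rw [mul_inv_cancel, if_pos rfl, if_neg (inv_ne_one.mpr hk)] at hmaps
        rw [mul_inv_cancel] at hm
        exact (h01 _ ⟨_, hm, rfl⟩ hmaps).elim
    · by_cases hk : QuotientGroup.mk' N ⟨g, hg⟩ = 1
      · obtain ⟨hm, hmaps⟩ := hmove ⟨g, hg⟩ D₀ D₁ D₁ D₀ h 1
        rw [hk, one_mul, if_pos rfl, if_pos rfl] at hmaps
        rw [hk, one_mul] at hm
        exact h01 _ ⟨_, hm, rfl⟩ hmaps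
      · set k := QuotientGroup.mk' N ⟨g, hg⟩ with hk'
        obtain ⟨j, hj1, hj2⟩ : ∃ j : Q, j ≠ 1 ∧ k * j ≠ 1 := by
          by_contra hc
          push Not at hc
          have hsub : (Set.univ : Set Q) ⊆ {1, k⁻¹} := fun j _ => by
            by_cases hj : j = 1
            · exact Or.inl hj
            · exact Or.inr (eq_inv_of_mul_eq_one_right (hc j hj))
          have := Set.ncard_le_ncard hsub
          rw [Set.ncard_univ, hQ] at this
          have h2 : ({1, k⁻¹} : Set Q).ncard ≤ 2 := (Set.ncard_insert_le _ _).trans (by simp)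
          have := hp.out.two_le
          omega
        obtain ⟨hm, hmaps⟩ := hmove ⟨g, hg⟩ D₀ D₁ D₁ D₀ h j
        rw [← hk', if_neg hj1, if_neg hj2] at hmaps
        rw [← hk'] at hm
        -- `D₁` is carried to `D₀`; invert
        refine h01 _ ((N.map M.subtype).inv_mem ⟨_, hm, rfl⟩) fun c hc => ?_
        have := hmaps _ (hBinv _ ((N.map M.subtype).inv_mem ⟨_, hm, rfl⟩) c hc)
        erw [smul_inv_smul] at this
        exact this.symm

end CfsgLib.OddRegular
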